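import Cfsg.Agent.H86.M8.Def

/-! Row S3384, part M, slot `N3`: the torus lies in `Ω`, and the order of its normaliser there. -/

set_option autoImplicit false

namespace H83.O84

open H6 (F4)
open H56 H86.M8 Subgroup

theorem two_eq : (2 : F4) = 0 := by decide

theorem mem_comm (g : O Q) : g ∈ commutator (O Q) ↔ dickson nd g = 1 :=
  (mem_commutator_iff_of_char_two nd two_eq nexc g).trans (dickson_eq_one_iff nd g).symm

theorem dickson_tau (a : Multiplicative (Fin 4 → ZMod 5)) : dickson nd (tau a) = 1 := by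
  have h5 : a ^ 5 = 1 := by
    apply Multiplicative.toAdd.injective
    rw [toAdd_pow, toAdd_one]
    funext k
    have k5 : ∀ z : ZMod 5, 5 • z = 0 := by decide
    exact k5 _
  have h : dickson nd (tau a) ^ 5 = 1 := by rw [← map_pow, ← map_pow, h5, map_one, map_one]
  rcases Int.units_eq_one_or (dickson nd (tau a)) with h1 | h1
  · exact h1
  · rw [h1] at h
    exact absurd h (by decide)

theorem dickson_ka (j : Fin 4) : dickson nd (ka j) = -1 :=
  dickson_refl nd (by rw [Q_single, nr_one]; exact one_ne_zero)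

/-- the first three factors of `ke` -/
def kk (e : Bool × Bool × Bool) : O Q :=
  (if e.1 then ka 0 else 1) * (if e.2.1 then ka 1 else 1) * (if e.2.2 then ka 2 else 1)

/-- the parametrisation of the elements of Dickson invariant `1` -/
noncomputable def par (x : (Fin 4 → ZMod 5) × (Bool × Bool × Bool) × Equiv.Perm (Fin 4)) : O Q :=
  if dickson nd (tt x.1 * kk x.2.1 * Pm x.2.2) = 1 then tt x.1 * kk x.2.1 * Pm x.2.2
  else tt x.1 * (kk x.2.1 * ka 3) * Pm x.2.2

theorem par_eq (a : Fin 4 → ZMod 5) (ε : Fin 4 → Bool) (π : Equiv.Perm (Fin 4))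
    (h : dickson nd (tt a * ke ε * Pm π) = 1) :
    par (a, (ε 0, ε 1, ε 2), π) = tt a * ke ε * Pm π := by
  have e : ke ε = kk (ε 0, ε 1, ε 2) * (if ε 3 then ka 3 else 1) := rfl
  rw [e] at h ⊢
  unfold par
  cases h3 : ε 3
  · rw [h3] at h
    simp only [Bool.false_eq_true, if_false, mul_one] at h ⊢
    rw [if_pos h]
  · rw [h3] at h
    simp only [if_true] at h ⊢
    rw [if_neg]
    intro h'
    simp only [map_mul, dickson_ka] at h h'
    rw [mul_neg, mul_one, mul_neg, neg_mul, h'] at h
    exact absurd h (by decide)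

theorem jN3 : N3 := by
  intro hN
  refine ⟨?_, ?_⟩
  · rintro _ ⟨a, rfl⟩
    exact (mem_comm _).2 (dickson_tau a)
  · have hs : ((normalizer (T0 : Set (O Q)) ⊓ commutator (O Q) : Subgroup (O Q)) : Set (O Q)) ⊆
        Set.range par := by
      rintro g ⟨h1, h2⟩
      obtain ⟨a, ε, π, rfl⟩ := hN g h1
      exact ⟨_, par_eq a ε π ((mem_comm _).1 h2)⟩
    have h1 := Nat.card_mono (Set.finite_range par) hs
    have h2 := Finite.card_range_le par
    have h3 : Nat.card ((Fin 4 → ZMod 5) × (Bool × Bool × Bool) × Equiv.Perm (Fin 4)) =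
        625 * 192 := by
      simp [Nat.card_eq_fintype_card, Fintype.card_perm, Nat.factorial]
    exact h1.trans (h2.trans h3.le)

end H83.O84
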