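import Cfsg.Agent.H42.IVSpec

/-! Tower IV (row S3929), slot `Fib`: the fibres of squaring on inverted elements. -/

set_option autoImplicit false

namespace H83.IV

open Subgroup H42.IV

universe u

theorem jobFib : JobFib.{u} := by
  intro R _ _ a S k
  induction k generalizing S with
  | zero =>
    intro h
    rw [pow_zero, ← Set.ncard_singleton (1 : R)]
    exact Set.ncard_le_ncard (fun x hx => by simpa using (h x hx).2.2) (Set.toFinite _)
  | succ k ih =>
    intro h
    have h1 := ih ((fun x => x ^ 2) '' S) (by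
      rintro _ ⟨x, hx, rfl⟩
      obtain ⟨e1, e2, e3⟩ := h x hx
      refine ⟨?_, ⟨_, e2, rfl⟩, ?_⟩
      · rw [← conj_pow, e1, inv_pow]
      · rw [← pow_mul, ← pow_succ', e3])
    have h2 : ∀ z : ((fun x => x ^ 2) '' S : Set R), ∃ x ∈ S, x ^ 2 = z := fun z => z.2
    choose r hr hr' using h2
    have h3 : ∀ x ∈ S, ∀ y ∈ S, x ^ 2 = y ^ 2 → x⁻¹ * y ∈ centralizer ({a} : Set R) := by
      intro x hx y hy e
      rw [mem_centralizer_singleton_iff]
      have e1 : a * x⁻¹ * a⁻¹ = x := by rw [← conj_inv, (h x hx).1, inv_inv]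
      calc x⁻¹ * y * a = x⁻¹ * y ^ 2 * y⁻¹ * a := by rw [sq]; group
        _ = x * y⁻¹ * a := by rw [← e, sq]; group
        _ = a * x⁻¹ * a⁻¹ * (a * y * a⁻¹) * a := by rw [e1, (h y hy).1]
        _ = _ := by group
    have h4 := Nat.card_le_card_of_injective (fun y : S =>
      ((⟨(y : R) ^ 2, y, y.2, rfl⟩, ⟨(r ⟨(y : R) ^ 2, y, y.2, rfl⟩)⁻¹ * y, h3 _ (hr _) _ y.2 (hr' _)⟩) :
        ((fun x => x ^ 2) '' S : Set R) × centralizer ({a} : Set R))) (fun y z e => by
      have e1 := congrArg Prod.fst e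
      have e2 := congrArg (fun p => (p.2 : R)) e
      simp only at e1 e2
      rw [e1] at e2
      exact Subtype.ext (mul_left_cancel e2))
    rw [Nat.card_prod, Nat.card_coe_set_eq, Nat.card_coe_set_eq] at h4
    rw [pow_succ]
    exact h4.trans (Nat.mul_le_mul_right _ h1)

end H83.IV
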