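import Cfsg.Agent.H53.SimXASpec

/-! # SIM-XA-CP2: elements of `GL₂` in characteristic 3 that commute with their conjugates -/

set_option autoImplicit false

namespace H83.SimCP2

open Subgroup Cfsg H98 Matrix H0.Sim H53.XA

variable {F : Type} [Field F]

theorem prop2 (h2 : (2 : F) ≠ 0) {A B : Mt 2 F} (hA : A.trace = 0) (hB : B.trace = 0)
    (h0 : A ≠ 0) (hc : A * B = B * A) : ∃ y : F, B = y • A := by
  rw [trace_fin_two] at hA hB
  have e00 := congrFun (congrFun hc 0) 0
  have e01 := congrFun (congrFun hc 0) 1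
  have e10 := congrFun (congrFun hc 1) 0
  simp only [mul_apply, Fin.sum_univ_two] at e00 e01 e10
  have a11 : A 1 1 = - A 0 0 := by linear_combination hA
  have b11 : B 1 1 = - B 0 0 := by linear_combination hB
  rw [a11, b11] at e01 e10
  have f1 : A 0 0 * B 0 1 = B 0 0 * A 0 1 := mul_left_cancel₀ h2 (by linear_combination e01)
  have f2 : A 0 0 * B 1 0 = B 0 0 * A 1 0 := mul_left_cancel₀ h2 (by linear_combination -e10)
  have f3 : A 0 1 * B 1 0 = B 0 1 * A 1 0 := by linear_combination e00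
  have key : ∀ t s : F, t ≠ 0 → t * B 0 0 = s * A 0 0 → t * B 0 1 = s * A 0 1 →
      t * B 1 0 = s * A 1 0 → ∃ y : F, B = y • A := fun t s ht k1 k2 k3 => by
    refine ⟨t⁻¹ * s, ?_⟩
    have k4 : t * B 1 1 = s * A 1 1 := by rw [a11, b11]; linear_combination -k1
    have k : ∀ i j, t * B i j = s * A i j := by
      simp only [Fin.forall_fin_two]
      exact ⟨⟨k1, k2⟩, k3, k4⟩
    ext i j
    rw [Matrix.smul_apply, smul_eq_mul, mul_assoc, ← k, inv_mul_cancel_left₀ ht]
  by_cases ha : A 0 0 = 0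
  · by_cases hb : A 0 1 = 0
    · by_cases hd : A 1 0 = 0
      · refine absurd ?_ h0
        have k : ∀ i j, A i j = 0 := by
          simp only [Fin.forall_fin_two]
          exact ⟨⟨ha, hb⟩, hd, by rw [a11, ha, neg_zero]⟩
        ext i j
        exact k i j
      · exact key _ (B 1 0) hd (by linear_combination -f2) (by linear_combination -f3) (by ring)
    · exact key _ (B 0 1) hb (by linear_combination -f1) (by ring) f3
  · exact key _ (B 0 0) ha (by ring) f1 f2

theorem cube (h3 : (3 : F) = 0) (X : Mt 2 F) (c : F) :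
    (X + c • 1) ^ 3 = X ^ 3 + c ^ 3 • 1 := by
  have : (X + c • 1) ^ 3 = X ^ 3 + (3 * c) • X ^ 2 + (3 * c ^ 2) • X + c ^ 3 • 1 := by
    simp only [pow_succ, pow_zero, one_mul, add_mul, mul_add, smul_mul_assoc, mul_smul_comm,
      mul_one]
    module
  rw [this, h3, zero_mul, zero_mul, zero_smul, zero_smul, add_zero, add_zero]

theorem cube_one (h3 : (3 : F) = 0) {y : F} (h : y ^ 3 = 1) : y = 1 :=
  sub_eq_zero.1 (pow_eq_zero_iff (n := 3) (by norm_num) |>.1 (by
    linear_combination h + (y - y ^ 2) * h3))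

theorem tr0 (h3 : (3 : F) = 0) (X : Mt 2 F) : (X + X.trace • (1 : Mt 2 F)).trace = 0 := by
  rw [trace_add, trace_smul, trace_one, smul_eq_mul]
  simp only [Fintype.card_fin, Nat.cast_ofNat]
  linear_combination X.trace * h3

theorem job : H53.XA.JCP2 := by
  intro uni F _ _ u d hF hd hc
  have h3 : (3 : F) = 0 := by
    have h := FiniteField.cast_card_eq_zero F
    rw [show Fintype.card F = _ from hF] at h
    split_ifs at h
    · exact (pow_eq_zero_iff (n := 2) (by norm_num)).1 (by exact_mod_cast h)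
    · exact_mod_cast h
  have h2 : (2 : F) ≠ 0 := fun h => one_ne_zero (by linear_combination h3 - h : (1 : F) = 0)
  have hr : ringChar F = 3 := CharP.ringChar_of_prime_eq_zero Nat.prime_three (by exact_mod_cast h3)
  obtain ⟨w, hw, w1, w3⟩ := uni 2 F u 3 hF le_rfl
  rw [hr] at w3
  obtain ⟨m, hm⟩ := exists_pow_eq_self_of_coprime (x := d) (n := 3) (hr ▸ hd.symm)
  suffices h : ∃ c : F, (d : Mt 2 F) ^ 3 = c • 1 by
    obtain ⟨c, h⟩ := h
    refine ⟨c ^ m, ?_⟩
    rw [← hm, Units.val_pow_eq_pow_val, Units.val_pow_eq_pow_val, h, smul_pow, one_pow,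
      scalar_apply, smul_one_eq_diagonal]
  set D : Mt 2 F := d.val with hD
  set W : Mt 2 F := w.val with hW
  set W' : Mt 2 F := (w⁻¹).val with hW'
  have ww : W * W' = 1 := w.mul_inv
  have ww' : W' * W = 1 := w.inv_mul
  have W3 : W ^ 3 = 1 := by rw [hW, ← Units.val_pow_eq_pow_val, w3, Units.val_one]
  have hcm : D * (W * D * W') = W * D * W' * D := congrArg Units.val (hc w hw).eq
  obtain ⟨A, hA⟩ : ∃ A, A = D + D.trace • (1 : Mt 2 F) := ⟨_, rfl⟩
  have tA : A.trace = 0 := hA ▸ tr0 h3 D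
  have DA : D = A + (-D.trace) • (1 : Mt 2 F) := by rw [hA]; module
  suffices h : ∃ c : F, A ^ 3 = c • 1 by
    obtain ⟨c, h⟩ := h
    exact ⟨c + (-D.trace) ^ 3, by rw [DA, cube h3, h, ← DA, add_smul]⟩
  by_cases A0 : A = 0
  · exact ⟨0, by rw [A0]; simp⟩
  have eB : W * A * W' = W * D * W' + D.trace • (1 : Mt 2 F) := by
    rw [hA, mul_add, add_mul, mul_smul_comm, smul_mul_assoc, mul_one, ww]
  obtain ⟨y, hy⟩ := prop2 h2 tA (B := W * A * W')
    (by rw [trace_mul_comm, ← mul_assoc, ww', one_mul, tA]) A0 (by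
      rw [eB, hA]
      simp only [add_mul, mul_add, smul_mul_assoc, mul_smul_comm, one_mul, mul_one, hcm]
      module)
  have hy' : W * A = y • (A * W) := by
    rw [← smul_mul_assoc, ← hy, mul_assoc (W * A), ww', mul_one]
  have y3 : y ^ 3 = 1 := by
    have : W ^ 3 * A = y ^ 3 • (A * W ^ 3) := by
      simp only [pow_succ, pow_zero, one_mul, mul_assoc]
      rw [hy', mul_smul_comm, ← mul_assoc W A, hy', smul_mul_assoc, mul_smul_comm, mul_smul_comm,
        mul_assoc A, ← mul_assoc W A, hy', smul_mul_assoc, smul_smul, smul_smul]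
      simp only [mul_assoc]
    rw [W3, one_mul, mul_one] at this
    exact (smul_left_injective F A0 ((one_smul F A).trans this)).symm
  rw [cube_one h3 y3, one_smul] at hy'
  obtain ⟨t, ht⟩ := prop2 h2 tA (tr0 h3 W) A0 (by
    simp only [add_mul, mul_add, smul_mul_assoc, mul_smul_comm, one_mul, mul_one, hy'])
  have c3 := cube h3 W W.trace
  rw [ht, W3, smul_pow] at c3
  by_cases t0 : t = 0
  · exfalso
    rw [t0, zero_smul] at ht
    have e : W = (-W.trace) • (1 : Mt 2 F) := by rw [neg_smul]; exact eq_neg_of_add_eq_zero_left ht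
    have e3 : (-W.trace) ^ 3 = 1 := by
      have := W3
      rw [e, smul_pow, one_pow] at this
      exact smul_left_injective F (one_ne_zero (α := Mt 2 F)) (this.trans (one_smul F _).symm)
    rw [cube_one h3 e3, one_smul] at e
    exact w1 (Units.ext e)
  · refine ⟨(t ^ 3)⁻¹ * (1 + W.trace ^ 3), ?_⟩
    rw [mul_smul, add_smul, one_smul, ← c3, smul_smul, inv_mul_cancel₀ (pow_ne_zero 3 t0), one_smul]

end H83.SimCP2
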