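import Cfsg.Agent.H48.DP1Spec

/-! S3275, chapter (1): `JobWC`. -/

set_option autoImplicit false
set_option linter.unusedSectionVars false

namespace H83.DP1WC

open Subgroup Cfsg H98 H48.DP

universe u

variable {G : Type u} [Group G] [Finite G]

section Klein

variable {A B : G} (hA : A * A = 1) (hB : B * B = 1) (hc : B * A = A * B)
include hA hB hc

theorem k4 : A * (A * B) = B ∧ B * (A * B) = A ∧ A * B * A = B ∧ A * B * B = A ∧
    A * B * (A * B) = 1 := by
  have h1 : A * (A * B) = B := by rw [← mul_assoc, hA, one_mul]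
  have h2 : A * B * B = A := by rw [mul_assoc, hB, mul_one]
  refine ⟨h1, by rw [← mul_assoc, hc, h2], by rw [mul_assoc, hc, h1], h2, ?_⟩
  rw [mul_assoc, ← mul_assoc B, hc, h2, hA]

theorem mem4 {v : G} (h : v ∈ closure ({A, B} : Set G)) : v = 1 ∨ v = A ∨ v = B ∨ v = A * B := by
  obtain ⟨e1, e2, e3, e4, e5⟩ := k4 hA hB hc
  induction h using closure_induction with
  | mem x hx => rcases hx with rfl | rfl <;> simp
  | one => simp
  | mul x y _ _ hx hy =>
    rcases hx with k | k | k | k <;> rcases hy with l | l | l | l <;> rw [k, l] <;> simp [*]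
  | inv x _ hx =>
    rcases hx with k | k | k | k <;> rw [k]
    · simp
    · simp [inv_eq_of_mul_eq_one_right hA]
    · simp [inv_eq_of_mul_eq_one_right hB]
    · exact .inr (.inr (.inr (inv_eq_of_mul_eq_one_right e5)))

theorem six {x y τ : G} (hx : x ∈ closure ({A, B} : Set G)) (hy : y ∈ closure ({A, B} : Set G))
    (ht : τ ∈ closure ({A, B} : Set G)) (h1 : τ ≠ 1) :
    (x = 1 ∨ x = τ) ∨ (y = 1 ∨ y = τ) ∨ (y * x = 1 ∨ y * x = τ) := by
  obtain ⟨e1, e2, e3, e4, e5⟩ := k4 hA hB hc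
  rcases mem4 hA hB hc ht with m | m | m | m
  · exact absurd m h1
  all_goals
    rcases mem4 hA hB hc hx with k | k | k | k <;> rcases mem4 hA hB hc hy with l | l | l | l <;>
      rw [k, l, m] <;> simp [hA, hB, hc, e1, e2, e3, e4, e5]

end Klein

theorem sq_mul {c d : G} (h : c * d = d * c) (h2 : d * d = 1) : c * d * (c * d) = c * c := by
  rw [mul_assoc, ← mul_assoc d, ← h, mul_assoc, h2, mul_one]

/-- `v(q)` -/
def vq (t q : G) : G := q * t * q⁻¹ * t

variable {L : Subgroup G} {a b s x y r t : G} (h : UQ1 L a b s x y r t)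
include h

theorem AA : a ^ 2 * a ^ 2 = 1 := by rw [← pow_add]; exact h.a4
theorem BB : b ^ 2 * b ^ 2 = 1 := by rw [← pow_add]; exact h.b4
theorem BA : b ^ 2 * a ^ 2 = a ^ 2 * b ^ 2 := (Commute.pow_pow (show Commute a b from h.ab) 2 2).symm
theorem tt : t * t = 1 := by rw [← sq, ← h.t2, pow_orderOf_eq_one]

theorem tL {l : G} (hl : l ∈ L) : t * l = l * t := by
  have : t ∈ Ce L := by
    rcases h.tr with e | e <;> rw [e]
    exacts [h.rc, pow_mem h.rc 2]
  exact (this l hl).symm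

theorem A1 : a ^ 2 ≠ 1 := fun e => by
  have := (h.ind 2 0 (by simpa [zpow_ofNat] using e)).1
  omega

theorem B1 : b ^ 2 ≠ 1 := fun e => by
  have := (h.ind 0 2 (by simpa [zpow_ofNat] using e)).2
  omega

theorem AB : a ^ 2 ≠ b ^ 2 := fun e => by
  have := (h.ind 2 2 (by simpa [zpow_ofNat, e] using BB h)).1
  omega

theorem VL : V0 a b ≤ L := (closure_le _).2 (by
  rintro _ (rfl | rfl)
  exacts [pow_mem h.aL 2, pow_mem h.bL 2])

theorem HL : Hs a b ≤ L := (closure_le _).2 (by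
  rintro _ (rfl | rfl)
  exacts [h.aL, h.bL])

theorem sqV {v : G} (hv : v ∈ V0 a b) : v * v = 1 := by
  rcases mem4 (AA h) (BB h) (BA h) hv with k | k | k | k <;> rw [k]
  exacts [mul_one 1, AA h, BB h, (k4 (AA h) (BB h) (BA h)).2.2.2.2]

theorem abV {u v : G} (hu : u ∈ V0 a b) (hv : v ∈ V0 a b) : u * v = v * u := by
  rw [← inv_eq_of_mul_eq_one_right (sqV h (mul_mem hu hv)), mul_inv_rev,
    inv_eq_of_mul_eq_one_right (sqV h hu), inv_eq_of_mul_eq_one_right (sqV h hv)]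

theorem mem_E {e : G} (he : e ∈ Es a b t) : ∃ v ∈ V0 a b, e = v ∨ e = t * v := by
  induction he using closure_induction with
  | mem x hx =>
    rcases hx with rfl | rfl | rfl
    · exact ⟨1, one_mem _, .inr (mul_one _).symm⟩
    · exact ⟨_, subset_closure (by simp), .inl rfl⟩
    · exact ⟨_, subset_closure (by simp), .inl rfl⟩
  | one => exact ⟨1, one_mem _, .inl rfl⟩
  | mul x y _ _ hx hy =>
    obtain ⟨u, hu, k⟩ := hx
    obtain ⟨v, hv, l⟩ := hy
    refine ⟨u * v, mul_mem hu hv, ?_⟩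
    rcases k with k | k <;> rcases l with l | l <;> rw [k, l]
    · exact .inl rfl
    · exact .inr (by rw [← mul_assoc, ← tL h (VL h hu), mul_assoc])
    · exact .inr (mul_assoc _ _ _)
    · exact .inl (by rw [mul_assoc, ← mul_assoc u, ← tL h (VL h hu), ← mul_assoc, ← mul_assoc, tt h,
        one_mul])
  | inv x _ hx =>
    obtain ⟨u, hu, k⟩ := hx
    refine ⟨u⁻¹, inv_mem hu, ?_⟩
    rcases k with k | k <;> rw [k]
    · exact .inl rfl
    · exact .inr (by rw [mul_inv_rev, inv_eq_of_mul_eq_one_right (tt h), tL h (VL h (inv_mem hu))])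

theorem ntv {v : G} (hv : v ∈ V0 a b) (g : G) : g * (t * v) * g⁻¹ ∉ L := by
  by_cases e : v = 1
  · rw [e, mul_one]; exact h.nz g
  obtain ⟨l, hl, e1⟩ := h.one v (VL h hv) (orderOf_eq_prime (by rw [sq]; exact sqV h hv) e)
  obtain ⟨k, e2⟩ := h.tz
  have : t * v = l⁻¹ * (k * t * k⁻¹) * l := by
    rw [e2, ← e1, ← mul_assoc, ← mul_assoc, ← mul_assoc, ← tL h (inv_mem hl)]; group
  rw [this]
  simpa [mul_assoc] using h.nz (g * l⁻¹ * k)

theorem vV {n : G} (hn : n ∈ No (Es a b t)) : vq t n ∈ V0 a b := (h.nE n hn).1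

theorem v_mul {q n : G} (hq : q ∈ Qs a b t) (hn : n ∈ No (Es a b t)) :
    vq t (q * n) = vq t n * vq t q := by
  have h1 : q * vq t n = vq t n * q := (hq.2 _ (vV h hn)).symm
  have h2 : n * t * n⁻¹ = vq t n * t := by rw [vq, mul_assoc (n * t * n⁻¹), tt h, mul_one]
  calc vq t (q * n) = q * (n * t * n⁻¹) * q⁻¹ * t := by unfold vq; group
    _ = _ := by rw [h2, ← mul_assoc, h1]; unfold vq; group

theorem v_conj {n q : G} : vq t (n * q) = n * vq t q * n⁻¹ * vq t n := by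
  rw [show n * vq t q * n⁻¹ * vq t n = n * q * t * q⁻¹ * (t * t) * n⁻¹ * t by unfold vq; group, tt h]
  unfold vq; group

theorem v_sq {q : G} (hq : q ∈ Qs a b t) : vq t (q * q) = 1 := by
  rw [v_mul h hq hq.1, sqV h (vV h hq.1)]

theorem v_one {q : G} : vq t q = 1 ↔ q * t * q⁻¹ = t := by
  rw [vq, mul_eq_one_iff_eq_inv, inv_eq_of_mul_eq_one_right (tt h)]

theorem ker {q : G} (hq : q ∈ Qs a b t) (h1 : vq t q = 1) : q ∈ Ys a b r := by
  rw [← h.cE, Ce, centralizer_closure]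
  rintro _ (rfl | rfl | rfl)
  · exact (mul_inv_eq_iff_eq_mul.1 ((v_one h).1 h1)).symm
  · exact hq.2 _ (subset_closure (by simp))
  · exact hq.2 _ (subset_closure (by simp))

theorem sA : s * a ^ 2 * s⁻¹ = b ^ 2 := by rw [← conj_pow, h.sa]

theorem sB : s * b ^ 2 * s⁻¹ = a ^ 2 := by
  rw [← sA h, ← mul_assoc, ← mul_assoc, h.s2, one_mul, mul_assoc, ← mul_inv_rev, h.s2]; simp

theorem sE : s ∈ No (Es a b t) := mem_normalizer_of_cj_le (map_le_iff_le_comap.2 ((closure_le _).2 (by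
  rintro _ (rfl | rfl | rfl)
  · exact subset_closure (.inl (by simp [← tL h h.sL]))
  · exact subset_closure (.inr (.inr (sA h)))
  · exact subset_closure (.inr (.inl (sB h))))))

theorem sQ {q : G} (hq : q ∈ Qs a b t) : s * q * s⁻¹ ∈ Qs a b t := by
  have : s ∈ No (V0 a b) := mem_normalizer_of_cj_le (map_le_iff_le_comap.2 ((closure_le _).2 (by
    rintro _ (rfl | rfl)
    · exact subset_closure (.inr (sA h))
    · exact subset_closure (.inl (sB h)))))
  exact ⟨(No _).mul_mem ((No _).mul_mem (sE h) hq.1) ((No _).inv_mem (sE h)),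
    conj_mem_of_mem_normalizer (normalizer_le_normalizer_centralizer _ this) hq.2⟩

theorem mem_T {w : G} (hw : w ∈ Ts a b s t) : w ∈ Qs a b t ∨ w * s ∈ Qs a b t := by
  obtain ⟨q, hq, _, ⟨n, rfl⟩, rfl⟩ := (mem_sup_right_norm (zpowers_le.2 (mem_normalizer_of_cj_le (by
    rintro _ ⟨q, hq, rfl⟩; exact sQ h hq)))).1 hw
  have h2 : s ^ (2 : ℤ) = 1 := by rw [zpow_ofNat, sq, h.s2]
  rcases Int.even_or_odd' n with ⟨m, rfl | rfl⟩
  · exact .inl (by simpa [zpow_mul, h2] using hq)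
  · exact .inr (by simpa [zpow_add, zpow_mul, h2, mul_assoc, h.s2] using hq)

theorem out_mul {w w' : G} (h1 : w * s ∈ Qs a b t) (h2 : w' * s ∈ Qs a b t) : w * w' ∈ Qs a b t := by
  have := mul_mem h1 (sQ h h2)
  rwa [show w * s * (s * (w' * s) * s⁻¹) = w * (s * s) * w' by group, h.s2, mul_one] at this

theorem out_fix {w v : G} (h1 : w * s ∈ Qs a b t) (hv : v ∈ V0 a b) (hc : w * v = v * w) :
    v = 1 ∨ v = a ^ 2 * b ^ 2 := by
  have h2 : s * v * s⁻¹ = v := by
    have := h1.2 v hv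
    rw [← mul_assoc, ← hc, mul_assoc, mul_assoc, mul_right_inj] at this
    rw [← this, mul_inv_cancel_right]
  rcases mem4 (AA h) (BB h) (BA h) hv with k | k | k | k
  · exact .inl k
  · rw [k, sA h] at h2; exact absurd h2.symm (AB h)
  · rw [k, sB h] at h2; exact absurd h2 (AB h)
  · exact .inr k

theorem abY : Ys a b r ≤ Ce (Ys a b r) := (closure_le _).2 (by
  have h1 := h.rc a h.aL
  have h2 := h.rc b h.bL
  have h3 := h.ab
  rw [Ce, centralizer_closure]
  rintro _ (rfl | rfl | rfl) _ (rfl | rfl | rfl) <;> simp [*])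

theorem tY : t ∈ Ys a b r := by
  have : r ∈ Ys a b r := subset_closure (by simp)
  rcases h.tr with e | e <;> rw [e]
  exacts [this, pow_mem this 2]

section Y

variable {g : G} (hY : cj g (Ys a b r) ≤ Ts a b s t)
include hY

theorem comm {c d : G} (hc : c ∈ cj g (Ys a b r)) (hd : d ∈ cj g (Ys a b r)) : c * d = d * c := by
  obtain ⟨c, hc, rfl⟩ := hc
  obtain ⟨d, hd, rfl⟩ := hd
  rw [← map_mul, ← map_mul, abY h hd c hc]

theorem allone {e q : G} (he : e ∈ cj g (Ys a b r)) (e1 : e ∈ Qs a b t) (e2 : e * e = 1)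
    (e3 : vq t e = 1) (e4 : e ∉ L) (hq : q ∈ cj g (Ys a b r)) (q1 : q ∈ Qs a b t) : vq t q = 1 := by
  obtain ⟨v, hv, k | k⟩ := mem_E h (h.om e (ker h e1 e3) e2)
  · exact absurd (k ▸ VL h hv) e4
  have := comm h hY hq he
  rw [k, mul_assoc, q1.2 v hv, ← mul_assoc, ← mul_assoc, mul_left_inj] at this
  rw [v_one h, this, mul_inv_cancel_right]

theorem out_false {w : G} (hw : w ∈ cj g (Ys a b r)) (w1 : w * s ∈ Qs a b t) : False := by
  have wE : w ∈ No (Es a b t) := by
    simpa using (No _).mul_mem w1.1 ((No _).inv_mem (sE h))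
  have vz : ∀ q ∈ cj g (Ys a b r), q ∈ Qs a b t → vq t q = 1 ∨ vq t q = a ^ 2 * b ^ 2 :=
    fun q hq q1 => out_fix h w1 (vV h q1.1) (by
      have k := v_mul h q1 wE
      rw [← comm h hY hw hq, v_conj h, abV h (vV h wE) (vV h q1.1), mul_left_inj] at k
      exact mul_inv_eq_iff_eq_mul.1 k)
  have t' := conj_mem_cj (g := g) (tY h)
  have t2 : g * t * g⁻¹ * (g * t * g⁻¹) = 1 := by rw [conj_mul, tt h]; simp
  have key : ∀ c ∈ Ys a b r, c ^ 2 ∈ V0 a b → c ^ 2 ≠ 1 → g * c ^ 2 * g⁻¹ = a ^ 2 * b ^ 2 := by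
    intro c hc c1 c2
    have c' := conj_mem_cj (g := g) hc
    have e : g * c ^ 2 * g⁻¹ = g * c * g⁻¹ * (g * c * g⁻¹) := by rw [conj_mul, sq]
    have s' : g * c ^ 2 * g⁻¹ ∈ cj g (Ys a b r) := e ▸ mul_mem c' c'
    have q' : g * c ^ 2 * g⁻¹ ∈ Qs a b t := by
      rw [e]
      exact (mem_T h (hY c')).elim (fun k => mul_mem k k) fun k => out_mul h k k
    have s2 : g * c ^ 2 * g⁻¹ * (g * c ^ 2 * g⁻¹) = 1 := by rw [conj_mul, sqV h c1]; simp
    have v1 : vq t (g * c ^ 2 * g⁻¹) = 1 := by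
      by_contra n1
      have n2 := (vz _ s' q').resolve_left n1
      have n3 := (mem_T h (hY c')).resolve_left fun k => n1 (e ▸ v_sq h k)
      rcases mem_T h (hY t') with k | k
      · rcases vz _ t' k with l | l
        · exact n1 (allone h hY t' k t2 l (h.nz g) s' q')
        · refine n1 (allone h hY (mul_mem t' s') (mul_mem k q') ?_ ?_ ?_ s' q')
          · rw [sq_mul (comm h hY t' s') s2, t2]
          · rw [v_mul h k q'.1, l, n2, (k4 (AA h) (BB h) (BA h)).2.2.2.2]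
          · rw [conj_mul]; exact ntv h c1 g
      · have := v_sq h (out_mul h n3 k)
        rw [sq_mul (comm h hY c' t') t2, ← e] at this
        exact n1 this
    obtain ⟨v, hv, k | k⟩ := mem_E h (h.om _ (ker h q' v1) s2)
    · exact (out_fix h w1 (k ▸ hv) (comm h hY hw s')).resolve_left fun l => c2 (conj_eq_one_iff.1 l)
    · refine absurd ?_ (ntv h hv g⁻¹)
      rw [← k]
      simpa [mul_assoc] using VL h c1
  have k1 := key a (subset_closure (by simp)) (subset_closure (by simp)) (A1 h)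
  rw [← key b (subset_closure (by simp)) (subset_closure (by simp)) (B1 h)] at k1
  exact AB h (by simpa using k1)

theorem leQ {w : G} (hw : w ∈ cj g (Ys a b r)) : w ∈ Qs a b t :=
  (mem_T h (hY hw)).resolve_right (out_false h hY hw)

theorem fixE (h1 : vq t (g * t * g⁻¹) = 1) : cj g (Es a b t) = Es a b t := by
  have k : ∀ c ∈ Ys a b r, c ^ 4 = 1 → g * c ^ 2 * g⁻¹ ∈ Es a b t := fun c hc c4 => by
    have c' := leQ h hY (conj_mem_cj hc)
    have e : g * c ^ 2 * g⁻¹ = g * c * g⁻¹ * (g * c * g⁻¹) := by rw [conj_mul, sq]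
    exact h.om _ (ker h (e ▸ mul_mem c' c') (e ▸ v_sq h c')) (by
      rw [conj_mul, ← pow_add, c4]; simp)
  refine cj_eq_self (mem_normalizer_of_cj_le (map_le_iff_le_comap.2 ((closure_le _).2 ?_)))
  rintro _ (rfl | rfl | rfl)
  · exact h.om _ (ker h (leQ h hY (conj_mem_cj (tY h))) h1) (by
      show g * _ * g⁻¹ * (g * _ * g⁻¹) = 1
      rw [conj_mul, tt h]; simp)
  · exact k a (subset_closure (by simp)) h.a4
  · exact k b (subset_closure (by simp)) h.b4

theorem second (P : ∀ q ∈ Qs a b t, q * t * q⁻¹ ≠ t → ∀ c ∈ Ys a b r, Commute c q →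
    c ∈ V0 a b ∨ ∃ h ∈ Hs a b, t * h ^ 2 = q * t * q⁻¹ ∧ c = t * h) : vq t (g * t * g⁻¹) = 1 := by
  by_contra n
  have t' := conj_mem_cj (g := g) (tY h)
  have t2 : g * t * g⁻¹ * (g * t * g⁻¹) = 1 := by rw [conj_mul, tt h]; simp
  have A : ∀ c ∈ cj g (Ys a b r), vq t c = 1 → c * c ≠ 1 → ∀ q ∈ cj g (Ys a b r),
      vq t q = 1 ∨ vq t q = c * c := fun c hc c1 c2 q hq => or_iff_not_imp_left.2 fun q1 => by
    rcases P q (leQ h hY hq) (fun k => q1 ((v_one h).2 k)) c (ker h (leQ h hY hc) c1)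
      (comm h hY hc hq) with k | ⟨m, hm, k, rfl⟩
    · exact absurd (sqV h k) c2
    · rw [vq, ← k, sq, mul_assoc, mul_assoc, ← tL h (HL h hm), mul_assoc]
  have B : ∀ c ∈ cj g (Ys a b r), c * c ≠ 1 → vq t c = 1 ∨ vq t c = vq t (g * t * g⁻¹) →
      vq t (g * t * g⁻¹) = c * c ∧ ∀ q ∈ cj g (Ys a b r), vq t q = 1 ∨ vq t q = vq t (g * t * g⁻¹) := by
    intro c hc c2 c1
    have : ∀ q ∈ cj g (Ys a b r), vq t q = 1 ∨ vq t q = c * c := by
      rcases c1 with c1 | c1
      · exact A c hc c1 c2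
      · have e := sq_mul (comm h hY hc t') t2
        rw [← e]
        refine A _ (mul_mem hc t') ?_ (e ▸ c2)
        rw [v_mul h (leQ h hY hc) (leQ h hY t').1, c1, sqV h (vV h (leQ h hY t').1)]
    have k := (this _ t').resolve_left n
    exact ⟨k, k ▸ this⟩
  have a' := conj_mem_cj (g := g) (show a ∈ Ys a b r from subset_closure (by simp))
  have b' := conj_mem_cj (g := g) (show b ∈ Ys a b r from subset_closure (by simp))
  have a2 : g * a * g⁻¹ * (g * a * g⁻¹) ≠ 1 := by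
    rw [conj_mul, ← sq]; exact fun k => A1 h (conj_eq_one_iff.1 k)
  have b2 : g * b * g⁻¹ * (g * b * g⁻¹) ≠ 1 := by
    rw [conj_mul, ← sq]; exact fun k => B1 h (conj_eq_one_iff.1 k)
  have fin : (∀ q ∈ cj g (Ys a b r), vq t q = 1 ∨ vq t q = vq t (g * t * g⁻¹)) → False := fun k => by
    have k1 := (B _ a' a2 (k _ a')).1
    rw [(B _ b' b2 (k _ b')).1, conj_mul, conj_mul, ← sq, ← sq] at k1
    exact AB h (by simpa using k1.symm)
  rcases six (AA h) (BB h) (BA h) (vV h (leQ h hY a').1) (vV h (leQ h hY b').1)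
    (vV h (leQ h hY t').1) n with k | k | k
  · exact fin (B _ a' a2 k).2
  · exact fin (B _ b' b2 k).2
  · rw [← v_mul h (leQ h hY a') (leQ h hY b').1] at k
    refine fin (B _ (mul_mem a' b') (fun l => AB h ?_) k).2
    rw [conj_mul, conj_mul, conj_eq_one_iff, ← sq, (show Commute a b from h.ab).mul_pow] at l
    rw [eq_inv_of_mul_eq_one_left l, inv_eq_of_mul_eq_one_right (BB h)]

end Y

omit h in
theorem jobWC : JobWC.{u} := by
  intro G _ _ L a b s x y r t h
  refine or_iff_not_imp_right.2 fun n g hY => fixE h.toUQ1 hY ?_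
  rcases h.psi.2 with P | P
  · by_contra k
    exact n ⟨P, _, leQ h.toUQ1 hY (conj_mem_cj (tY h.toUQ1)), by rw [conj_mul, tt h.toUQ1]; simp,
      fun l => k ((v_one h.toUQ1).2 l)⟩
  · exact second h.toUQ1 hY P

end H83.DP1WC
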