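import Cfsg.Agent.H11.FBSpec

/-! Tower FB (row S3404), slot `A2`: complement of even order, odd degree. -/

set_option autoImplicit false

namespace H83.FB

open H11.FB MulAction Subgroup

universe u v

variable {G : Type u} {Ω : Type v} [Group G] [MulAction G Ω]

/-- degree seven -/
theorem seven [Finite G] [Fintype Ω] [FaithfulSMul G Ω] {a b c d : Ω} {K H : Subgroup G} {t : G}
    (hy : Hy a b c d K H) (cd : Cd a b c d K H) (ea : Ea (L4 G a b c d) K H t)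
    (h7 : Fintype.card Ω = 7) : Nonempty (G ≃* Equiv.Perm (Fin 7)) := by
  classical
  have hK : 3 ≤ Nat.card K := by
    have h1 := (one_lt_card_iff_ne_bot K).2 hy.fr.Kne
    obtain ⟨m, hm⟩ := ea.odd
    omega
  have hH : 2 ≤ Nat.card H := (one_lt_card_iff_ne_bot H).2 hy.fr.Hne
  have h6 : 3 * 2 ≤ Nat.card K * Nat.card H := Nat.mul_le_mul hK hH
  have hG := cd.cG
  rw [cd.cX, cd.cL, h7] at hG
  have hP : Nat.card (Equiv.Perm Ω) = 5040 := by
    rw [Nat.card_perm, Nat.card_eq_fintype_card, h7]; rfl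
  have hb : Function.Bijective (toPermHom G Ω) :=
    Function.Injective.bijective_of_nat_card_le toPerm_injective (by rw [hP, hG]; omega)
  exact ⟨(MulEquiv.ofBijective _ hb).trans (Fintype.equivFinOfCardEq h7).permCongrHom⟩

theorem ncard_two [Fintype Ω] {a b : Ω} (h : a ≠ b) :
    {x : Ω | x ≠ a ∧ x ≠ b}.ncard + 2 = Fintype.card Ω := by
  have e : {x : Ω | x ≠ a ∧ x ≠ b} = ({a, b} : Set Ω)ᶜ := by ext; simp
  rw [e, ← Set.ncard_pair h, add_comm, Set.ncard_add_ncard_compl, Nat.card_eq_fintype_card]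

theorem ncard_three [Fintype Ω] {a b c : Ω} (h : a ≠ b) (h' : a ≠ c) (h'' : b ≠ c) :
    {x : Ω | (x ≠ a ∧ x ≠ b) ∧ x ≠ c}.ncard + 3 = Fintype.card Ω := by
  have e : {x : Ω | (x ≠ a ∧ x ≠ b) ∧ x ≠ c} = ({a, b, c} : Set Ω)ᶜ := by ext; simp [and_assoc]
  rw [e, ← Set.ncard_eq_three.2 ⟨a, b, c, h, h', h'', rfl⟩, add_comm, Set.ncard_add_ncard_compl,
    Nat.card_eq_fintype_card]

theorem jobA2 : JobA2.{u, v} := by
  intro hOd hRG hQ2 hSM G Ω _ _ _ _ _ _ a b c d K H t hy cd ea hodd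
  obtain ⟨hab, hac, had, hbc, hbd, hcd⟩ := hy.ne
  have hS := ncard_two hab
  have hT := ncard_three hab hac hbc
  have h7 := cd.seven
  have inj := fun g : G => MulAction.injective (β := Ω) g
  have hcS : c ∈ {x : Ω | x ≠ a ∧ x ≠ b} := ⟨hac.symm, hbc.symm⟩
  have hdS : d ∈ {x : Ω | x ≠ a ∧ x ≠ b} := ⟨had.symm, hbd.symm⟩
  have out := hOd (Y2 G a b) {x : Ω | x ≠ a ∧ x ≠ b}
    (fun m hm x hx => ⟨fun e => hx.1 (inj m (e.trans (mem_Y2.1 hm).1.symm)),
      fun e => hx.2 (inj m (e.trans (mem_Y2.1 hm).2.symm))⟩)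
    (fun m hm h => FaithfulSMul.eq_of_smul_eq_smul (α := Ω) fun x => by
      rw [one_smul]
      by_cases h1 : x = a
      · rw [h1, (mem_Y2.1 hm).1]
      by_cases h2 : x = b
      · rw [h2, (mem_Y2.1 hm).2]
      exact h x ⟨h1, h2⟩)
    (by
      obtain ⟨m, hm⟩ := hodd
      exact ⟨m - 1, by omega⟩)
    (fun x hx y hy' x' hx' y' hy'' h1 h2 => by
      obtain ⟨g, e1, e2, e3, e4⟩ := hy.exists_smul
        (show D4 a b x y from ⟨hab, hx.1.symm, hy'.1.symm, hx.2.symm, hy'.2.symm, h1⟩)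
        (show D4 a b x' y' from ⟨hab, hx'.1.symm, hy''.1.symm, hx'.2.symm, hy''.2.symm, h2⟩)
      exact ⟨g, mem_Y2.2 ⟨e1, e2⟩, e3, e4⟩)
    c hcS d hdS hcd
    (fun x hx y hy' => ea.hf x
      (mem_L4.2 ⟨(mem_Y2.1 hx.1).1, (mem_Y2.1 hx.1).2, (mem_Y2.1 hx.2).1, (mem_Y2.1 hx.2).2⟩) y
      (mem_L4.2 ⟨(mem_Y2.1 hy'.1).1, (mem_Y2.1 hy'.1).2, (mem_Y2.1 hy'.2).1, (mem_Y2.1 hy'.2).2⟩))
  rcases out with ⟨N, hN⟩ | ⟨J, hJY, hJ0, hJn, hJm, hQ | ⟨h11, -⟩⟩
  · exact (hRG hy.tr hy.ne h7 (hy.fr.Hle ea.mem) ea.ne ea.sq hN).elim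
  swap
  · exact (hSM hy ea (.inr (by omega))).elim
  obtain ⟨Q, hQp, hQm, hQt, hQr⟩ := hQ c hcS
  have Qa : ∀ x ∈ Q, x • a = a := fun x hx => (mem_Y2.1 (hJY ((hQm x).1 hx).1)).1
  have Qb : ∀ x ∈ Q, x • b = b := fun x hx => (mem_Y2.1 (hJY ((hQm x).1 hx).1)).2
  have Qc : ∀ x ∈ Q, x • c = c := fun x hx => ((hQm x).1 hx).2.1
  have Qd : ∀ x ∈ Q, (x • d ≠ a ∧ x • d ≠ b) ∧ x • d ≠ c := fun x hx =>
    ⟨⟨fun e => had (inj x ((Qa x hx).trans e.symm)), fun e => hbd (inj x ((Qb x hx).trans e.symm))⟩,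
      fun e => hcd (inj x ((Qc x hx).trans e.symm))⟩
  have Qi : ∀ x ∈ Q, ∀ y ∈ Q, x • d = y • d → x = y := fun x hx y hy' e =>
    (inv_mul_eq_one.1 (hQr d hdS hcd.symm _ (Q.mul_mem (Q.inv_mem hy') hx)
      (by rw [mul_smul, e, inv_smul_smul]))).symm
  have hQc : Nat.card Q + 3 = Fintype.card Ω := by
    rw [← hT, ← Nat.card_coe_set_eq]
    congr 1
    refine Nat.card_eq_of_bijective (fun x : Q => (⟨(x : G) • d, Qd x x.2⟩ :
      {x : Ω | (x ≠ a ∧ x ≠ b) ∧ x ≠ c})) ⟨fun x y e => Subtype.ext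
        (Qi x x.2 y y.2 (congrArg Subtype.val e)), fun y => ?_⟩
    obtain ⟨g, hg, e⟩ := hQt d hdS y y.2.1 hcd.symm y.2.2
    exact ⟨⟨g, hg⟩, Subtype.ext e⟩
  haveI : Fact (Nat.Prime 2) := ⟨Nat.prime_two⟩
  obtain ⟨⟨z, hz⟩, hz2⟩ := exists_prime_orderOf_dvd_card' (G := Q) 2 (by
    obtain ⟨m, hm⟩ := hodd
    exact ⟨m - 1, by omega⟩)
  rw [← orderOf_coe] at hz2
  have z1 : z ≠ 1 := fun e => by
    simp only [e, orderOf_one] at hz2
    omega
  have zz : z * z = 1 := by rw [← sq, ← hz2]; exact pow_orderOf_eq_one z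
  have zd : z • d ≠ d := fun e => z1 (hQr d hdS hcd.symm z hz e)
  obtain ⟨g, g1, g2, g3, g4⟩ := hy.exists_smul
    (show D4 d (z • d) a b from ⟨zd.symm, had.symm, hbd.symm, (Qd z hz).1.1, (Qd z hz).1.2, hab⟩)
    hy.ne
  obtain ⟨w, hw⟩ : ∃ w, w = g * z * g⁻¹ := ⟨_, rfl⟩
  have wg : ∀ x : Ω, w • g • x = g • z • x := fun x => by
    rw [hw, mul_smul, mul_smul, inv_smul_smul]
  have ww : w * w = 1 := by
    rw [hw]
    calc g * z * g⁻¹ * (g * z * g⁻¹) = g * (z * z) * g⁻¹ := by group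
      _ = 1 := by rw [zz, mul_one, mul_inv_cancel]
  have wi : w⁻¹ = w := inv_eq_of_mul_eq_one_right ww
  have wa : w • a = b := by
    have := wg d
    rwa [g1, g2] at this
  have wb : w • b = a := by rw [← wa, ← mul_smul, ww, one_smul]
  have wc : w • c = c := by
    have := wg a
    rwa [Qa z hz, g3] at this
  have wd : w • d = d := by
    have := wg b
    rwa [Qb z hz, g4] at this
  have we : w • g • c = g • c := by rw [wg, Qc z hz]
  have wf : ∀ x : Ω, w • x = x → x = c ∨ x = d ∨ x = g • c := fun x e => by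
    have e' : z • g⁻¹ • x = g⁻¹ • x := inj g (by
      have := wg (g⁻¹ • x)
      rw [smul_inv_smul] at this
      change g • _ = g • _
      rw [← this, e, smul_inv_smul])
    by_contra! hx
    refine z1 (hQr (g⁻¹ • x) ⟨fun h => hx.1 ?_, fun h => hx.2.1 ?_⟩ (fun h => hx.2.2 ?_) z hz e')
    · rw [← g3, ← h, smul_inv_smul]
    · rw [← g4, ← h, smul_inv_smul]
    · rw [← h, smul_inv_smul]
  have wY : ∀ m ∈ Y2 G a b, w * m * w ∈ Y2 G a b := fun m hm => mem_Y2.2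
    ⟨by rw [mul_smul, mul_smul, wa, (mem_Y2.1 hm).2, wb],
      by rw [mul_smul, mul_smul, wb, (mem_Y2.1 hm).1, wa]⟩
  have hwx : ∀ x : G, w * (w * x * w) * w = x := fun x => by
    calc w * (w * x * w) * w = (w * w) * x * (w * w) := by group
      _ = x := by rw [ww, one_mul, mul_one]
  have wJ : J ≤ cj w J := hJm _
    (fun x hx => by
      have := wY _ (hJY (mem_cj.1 hx))
      rwa [wi, hwx] at this)
    (fun m hm x hx => by
      rw [mem_cj, wi] at hx ⊢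
      have := hJn _ (wY m hm) _ hx
      convert this using 1
      rw [mul_inv_rev, mul_inv_rev, wi]
      calc w * (m * x * m⁻¹) * w = w * m * 1 * x * 1 * m⁻¹ * w := by group
        _ = w * m * (w * w) * x * (w * w) * m⁻¹ * w := by rw [ww]
        _ = _ := by group)
    (fun e => hJ0 ((map_eq_bot_iff_of_injective _ (MulAut.conj w).injective).1 e))
  have nQ : ∀ s : G, (∀ x ∈ J, s * x * s⁻¹ ∈ J) → s • c = c → ∀ x ∈ Q, s * x * s⁻¹ ∈ Q :=
    fun s hs sc x hx => by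
      obtain ⟨h1, h2, k, h3⟩ := (hQm x).1 hx
      refine (hQm _).2 ⟨hs x h1, ?_, k, by rw [conj_pow, h3, mul_one, mul_inv_cancel]⟩
      rw [mul_smul, mul_smul, inv_smul_eq_iff.2 sc.symm, h2, sc]
  have wQ : ∀ x ∈ Q, w * x * w⁻¹ ∈ Q := nQ w (fun x hx => by
    have := mem_cj.1 (wJ hx)
    rwa [wi] at this ⊢) wc
  have ea' : g • c ≠ a := fun e => hcd (inj g (e.trans g1.symm))
  have eb' : g • c ≠ b := fun e => (Qd z hz).2 (inj g (g2.trans e.symm))
  have ec' : g • c ≠ c := fun e => hac (inj g (g3.trans e.symm))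
  have ed' : g • c ≠ d := fun e => hbc (inj g (g4.trans e.symm))
  obtain ⟨q, hq, qd⟩ := hQt d hdS (g • c) ⟨ea', eb'⟩ hcd.symm ec'
  have qw : w * q = q * w := by
    have := Qi _ (wQ q hq) q hq (by rw [mul_smul, mul_smul, wi, wd, qd, we])
    exact mul_inv_eq_iff_eq_mul.1 this
  have hC : Nat.card (Q ⊓ centralizer {w} : Subgroup G) = 2 := by
    refine Nat.card_eq_two_iff.2 ⟨1, ⟨q, hq, mem_centralizer_singleton_iff.2 qw.symm⟩, fun e => ?_,
      Set.eq_univ_of_forall fun x => ?_⟩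
    · have e' : (1 : G) = q := congrArg Subtype.val e
      rw [← e', one_smul] at qd
      exact ed' qd.symm
    · have hx := mem_centralizer_singleton_iff.1 x.2.2
      rcases wf ((x : G) • d) (by rw [← mul_smul, ← hx, mul_smul, wd]) with h | h | h
      · exact ((Qd x x.2.1).2 h).elim
      · exact .inl (Subtype.ext (hQr d hdS hcd.symm x x.2.1 h))
      · exact .inr (Subtype.ext (Qi x x.2.1 q hq (h.trans qd.symm)))
  obtain ⟨k, hk, k1⟩ := (K.bot_or_exists_ne_one).resolve_left hy.fr.Kne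
  obtain ⟨ka, kb, kc, kd⟩ := mem_L4.1 (hy.fr.Kle hk)
  have h48 := hQ2 hQp ww wQ hC (ea.odd.of_dvd_nat (orderOf_dvd_natCard K hk))
    (nQ k (hJn k (mem_Y2.2 ⟨ka, kb⟩)) kc) (by
      by_contra! h
      refine k1 (FaithfulSMul.eq_of_smul_eq_smul (α := Ω) fun x => ?_)
      rw [one_smul]
      by_cases h1 : x = a
      · rw [h1, ka]
      by_cases h2 : x = b
      · rw [h2, kb]
      by_cases h3 : x = c
      · rw [h3, kc]
      obtain ⟨y, hy', e⟩ := hQt d hdS x ⟨h1, h2⟩ hcd.symm h3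
      rw [← e, ← mul_smul, h y hy', mul_smul, kd])
  rcases h48 with h | h
  · exact .inl (seven hy cd ea (by omega))
  · exact (hSM hy ea (.inl (by omega))).elim

end H83.FB
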