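import Cfsg.Agent.H42.PnSpec

/-! PN tower (S3399): `jobPA`. -/

set_option autoImplicit false
set_option linter.unusedSectionVars false

namespace H83.PNPA
open Equiv MulAction Pointwise H2.Ln H42.PN

variable {α : Type} [Fintype α] [DecidableEq α]

/-- Orbit and stabiliser. -/
theorem orb_card (L : Subgroup (Perm α)) (c : α) :
    Nat.card (fx L {c}) * (orb L c).card = Nat.card L := by
  have h3 : (orbit L c).ncard = (orb L c).card := by
    rw [← Set.ncard_coe_finset]
    congr 1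
    ext b
    rw [Finset.mem_coe, mem_orb, mem_orbit_iff]
    exact ⟨fun ⟨x, hx⟩ => ⟨x, x.2, hx⟩, fun ⟨x, hx, e⟩ => ⟨⟨x, hx⟩, e⟩⟩
  have h4 : (fx L {c}).subgroupOf L = stabilizer L c := by
    ext x
    rw [Subgroup.mem_subgroupOf, mem_fx, mem_stabilizer_iff]
    exact ⟨fun h => h.2 c (Finset.mem_singleton_self c), fun h =>
      ⟨x.2, fun a ha => by rw [Finset.mem_singleton.1 ha]; exact h⟩⟩
  rw [← h3, ← MulAction.index_stabilizer, ← Subgroup.card_mul_index (stabilizer L c), ← h4,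
    Nat.card_congr (Subgroup.subgroupOfEquivOfLe (H := fx L {c}) (K := L) inf_le_left).toEquiv]

theorem card_fx_smul {G : Subgroup (Perm α)} {g : Perm α} (hg : g ∈ G) (T : Finset α) :
    Nat.card (fx G (g • T)) = Nat.card (fx G T) := by
  have : fx G (g • T) = cj (fx G T) g := by
    ext x
    rw [mem_cj, mem_fx, mem_fx]
    constructor
    · rintro ⟨h1, h2⟩
      refine ⟨G.mul_mem (G.mul_mem (G.inv_mem hg) h1) hg, fun a ha => ?_⟩
      simp [h2 _ (app_mem_sm.2 ha)]
    · rintro ⟨h1, h2⟩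
      refine ⟨by simpa [mul_assoc] using G.mul_mem (G.mul_mem hg h1) (G.inv_mem hg), fun a ha => ?_⟩
      simpa using h2 _ (mem_sm.1 ha)
  rw [this, cj, Subgroup.card_map_of_injective (MulAut.conj g).injective]

theorem sm4 (g : Perm α) (x y z c : α) : g • ({x, y, z, c} : Finset α) = {g x, g y, g z, g c} := by
  simp [Finset.smul_finset_insert]

theorem jobPA : Clq → PA := by
  intro clq α _ _ G K a a' b O₁ O₂ h
  obtain ⟨u₁, e₁⟩ := h.o1
  obtain ⟨u₂, e₂⟩ := h.o2
  have inv : ∀ g ∈ G, ∀ T : Finset α, Nat.card (fx G (g • T)) * O₁.card = Nat.card (fx G {a, a', b}) ↔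
      Nat.card (fx G T) * O₁.card = Nat.card (fx G {a, a', b}) := fun g hg T => by
    rw [card_fx_smul hg]
  have mem : ∀ c ∉ [a, a', b], Nat.card (fx G {a, a', b, c}) * O₁.card =
      Nat.card (fx G {a, a', b}) ↔ c ∈ O₁ := fun c hc => by
    have e : fx G {a, a', b, c} = fx (fx G {a, a', b}) {c} := by
      ext x
      simp [mem_fx, and_assoc]
    rw [e, ← orb_card (fx G {a, a', b}) c, Nat.mul_right_inj Nat.card_pos.ne']
    refine ⟨fun k => ((h.cov c).2 hc).resolve_right fun k2 => ?_, fun k => ?_⟩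
    · rw [orb_eq (e₂ ▸ k2), ← e₂, h.d1, h.d2] at k
      omega
    · rw [orb_eq (e₁ ▸ k), ← e₁]
  refine ⟨fun T => Nat.card (fx G T) * O₁.card = Nat.card (fx G {a, a', b}), inv, mem,
    fun x y z c e nd q1 q2 q3 => ?_⟩
  have nd3 : [x, y, z].Nodup := by simp at nd ⊢; grind
  obtain ⟨g, hg, rfl, rfl, rfl⟩ := h.t3 x (by simp) y (by simp) z (by simp) a (by simp) a' (by simp)
    b (by simp) nd3 h.nd
  rw [← inv g hg, sm4] at q1 q2 q3
  have c1 := (mem _ (by simp at nd ⊢; grind)).1 q1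
  have c2 := (mem _ (by simp at nd ⊢; grind)).1 q2
  have c3 : g c ≠ g e := by simp at nd ⊢; grind
  generalize g x = a at *
  generalize g y = a' at *
  generalize g z = b at *
  generalize g c = u at *
  generalize g e = u' at *
  have out : ∀ v ∈ O₁, v ∉ [a, a', b] := fun v hv => (h.cov v).1 (.inl hv)
  have all : ∀ v ∈ O₁, ∀ v' ∈ O₁, v ≠ v' →
      Nat.card (fx G {a, a', v, v'}) * O₁.card = Nat.card (fx G {a, a', b}) := fun v hv v' hv' k => by
    obtain ⟨l, hl, rfl, rfl⟩ := h.t2 u c1 u' c2 v hv v' hv' c3 k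
    rw [mem_fx] at hl
    rw [← inv l hl.1, sm4, hl.2 a (by simp), hl.2 a' (by simp)] at q3
    exact q3
  have eL : fx (fx G {a, a'}) {b} = fx G {a, a', b} := by
    ext x
    simp [mem_fx, and_assoc]
  have nd' := h.nd
  have sit : Sit (fx G {a, a'}) K (Finset.univ \ {a, a'}) := by
    refine ⟨fun k hk => mem_fx.2 ⟨h.le hk, fun s hs => ?_⟩, h.pro.mono inf_le_left,
      fun k hk s hs => ?_, fun s hs s' hs' => ?_, ?_⟩
    · rcases Finset.mem_insert.1 hs with rfl | hs
      · exact mem_fp.1 h.ha k hk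
      · rw [Finset.mem_singleton.1 hs]
        exact mem_fp.1 h.ha' k hk
    · have k1 := (mem_fx.1 hk).2 a (by simp)
      have k2 := (mem_fx.1 hk).2 a' (by simp)
      simp only [Finset.mem_sdiff, Finset.mem_univ, Finset.mem_insert, Finset.mem_singleton,
        true_and, not_or] at hs ⊢
      exact ⟨fun k => hs.1 (k.trans k1.symm |> (EquivLike.injective _ ·)),
        fun k => hs.2 (k.trans k2.symm |> (EquivLike.injective _ ·))⟩
    · obtain ⟨k, hk, k1, k2, k3⟩ := h.t3 a (by simp) a' (by simp) s (by simp) a (by simp) a' (by simp)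
        s' (by simp) (by simp at nd' hs ⊢; grind) (by simp at nd' hs' ⊢; grind)
      exact ⟨k, mem_fx.2 ⟨hk, by simp [k1, k2]⟩, k3⟩
    · obtain ⟨s, s1, s2⟩ := Finset.not_subset.1 h.mv
      have := out s s1
      exact ⟨s, by simp at this ⊢; grind, s2⟩
  have hu := out u c1
  have key := clq α _ K _ _ h.loc sit (Finset.card_le_univ _) b (by simp at nd' ⊢; grind) h.hb u
    (by simp at hu ⊢; grind) (by simp at hu; grind) O₁ (by rw [eL, orb_eq (e₁ ▸ c1), ← e₁]) h.mv h.d1
    fun v hv v' hv' k => by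
      have o1 := out v hv
      have o2 := out v' hv'
      obtain ⟨g, hg, g1, g2, g3⟩ := h.t3 a (by simp) a' (by simp) b (by simp) a (by simp) a' (by simp)
        v (by simp) h.nd (by simp at nd' o1 ⊢; grind)
      have k1 : g (g⁻¹ v') = v' := by simp
      have k2 : g⁻¹ v' ∈ O₁ := (mem _ (by
        simp only [List.mem_cons, List.not_mem_nil, or_false, not_or] at o2 ⊢
        refine ⟨fun k3 => o2.1 ?_, fun k3 => o2.2.1 ?_, fun k3 => k ?_⟩
        · rw [← k1, k3, g1]
        · rw [← k1, k3, g2]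
        · rw [← k1, k3, g3])).1 (by
        rw [← inv g hg, sm4, g1, g2, g3, k1]
        exact all v hv v' hv' k)
      obtain ⟨l, hl, k3⟩ := orb_tr u (e₁ ▸ c1) _ (e₁ ▸ k2)
      rw [mem_fx] at hl
      refine ⟨g * l, mem_fx.2 ⟨G.mul_mem hg hl.1, ?_⟩, ?_, ?_⟩
      · simp [hl.2 a (by simp), hl.2 a' (by simp), g1, g2]
      · rw [Perm.mul_apply, hl.2 b (by simp), g3]
      · rw [Perm.mul_apply, k3, k1]
  obtain ⟨w, hw⟩ : O₂.Nonempty := Finset.card_pos.1 (by rw [h.d2]; omega)
  have w1 := (h.cov w).1 (.inr hw)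
  have w2 : w ∈ insert b O₁ := by
    rw [key]
    simp at w1 ⊢
    grind
  rcases Finset.mem_insert.1 w2 with rfl | w2
  · exact w1 (by simp)
  · exact Finset.disjoint_left.1 h.dj w2 hw

end H83.PNPA
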