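import Cfsg.Agent.H30.SQSpec
import Cfsg.Agent.H88.SE
import Cfsg.Agent.H23.MaxCent

/-! Tower SQ (S4132): `JobSEm`. -/

set_option autoImplicit false

open Cfsg Subgroup

namespace H83.SQSEm

universe u

variable {G : Type u} [Group G]

theorem sq_of {s : G} (h : orderOf s = 2) : s * s = 1 := by rw [← sq, ← h, pow_orderOf_eq_one]

theorem inv_pow_of {s w : G} (h : s * w * s⁻¹ = w⁻¹) (n : ℕ) : s * w ^ n * s⁻¹ = (w ^ n)⁻¹ := by
  rw [← conj_pow, h, inv_pow]

theorem inv_left {s t : G} (hs : s * s = 1) (ht : t * t = 1) : s * (s * t) * s⁻¹ = (s * t)⁻¹ := by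
  rw [← mul_assoc, hs, one_mul, mul_inv_rev, inv_eq_of_mul_eq_one_right ht]

theorem inv_right {s t : G} (hs : s * s = 1) (ht : t * t = 1) : t * (s * t) * t⁻¹ = (s * t)⁻¹ := by
  rw [mul_inv_rev, inv_eq_of_mul_eq_one_right ht, inv_eq_of_mul_eq_one_right hs, mul_assoc, mul_assoc,
    ht, mul_one]

theorem jobSEm : H30.SQ.JobSEm.{u} := by
  intro G _ _ H hH h4 hP
  have := Fact.mk Nat.prime_two
  obtain ⟨⟨s, sH⟩, hs⟩ := exists_prime_orderOf_dvd_card' (G := H) 2 hH.2.1.two_dvd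
  rw [← orderOf_coe] at hs
  replace hs : orderOf s = 2 := hs
  obtain ⟨g, -, hg⟩ := SetLike.exists_of_lt (lt_top_iff_ne_top.2 hH.1)
  have ht : orderOf (g * s * g⁻¹) = 2 := ((MulAut.conj g).orderOf_eq s).trans hs
  have tH : g * s * g⁻¹ ∉ H := fun k => by
    have h1 := orderOf_dvd_natCard (⟨g * s * g⁻¹, k, s, sH, rfl⟩ :
      ↥(H ⊓ H.map (MulAut.conj g).toMonoidHom))
    rw [← orderOf_coe, ht] at h1
    exact (Nat.not_even_iff_odd.2 (hH.2.2 g hg)) (even_iff_two_dvd.2 h1)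
  obtain ⟨q, k, n, hq, -, xH, hx⟩ := H23.exists_prime_pow_part_not_mem (K := H)
    (w := s * (g * s * g⁻¹)) fun k => tH ((H.mul_mem_cancel_left sH).1 k)
  have sx := inv_pow_of (inv_left (sq_of hs) (sq_of ht)) n
  generalize (s * (g * s * g⁻¹)) ^ n = x at xH hx sx
  obtain ⟨j, -, hj⟩ := (Nat.dvd_prime_pow hq).1 (orderOf_dvd_of_pow_eq_one hx)
  refine hP x ⟨q, j, hq, hj⟩ ?_
  rw [← card_mul_index (centralizer {x})] at h4
  refine Nat.Coprime.dvd_of_dvd_mul_left (Nat.Coprime.pow_left 2 ((Nat.coprime_two_left).2 ?_)) h4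
  rw [← Nat.not_even_iff_odd]
  intro he
  obtain ⟨⟨c, hc⟩, c2⟩ := exists_prime_orderOf_dvd_card' (G := centralizer {x}) 2 he.two_dvd
  rw [← orderOf_coe] at c2
  replace c2 : orderOf c = 2 := c2
  have cx : c * x = x * c := mem_centralizer_singleton_iff.1 hc
  rcases Nat.even_or_odd' (orderOf (c * s)) with ⟨m, hm | hm⟩
  · have m0 : m ≠ 0 := fun e => (orderOf_pos (c * s)).ne' (by rw [hm, e])
    have z2 : orderOf ((c * s) ^ m) = 2 := by
      rw [orderOf_pow' _ m0, hm, Nat.gcd_mul_left_left, Nat.mul_div_cancel _ (Nat.pos_of_ne_zero m0)]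
    have k1 := inv_pow_of (inv_right (sq_of c2) (sq_of hs)) m
    have k2 := inv_pow_of (inv_left (sq_of c2) (sq_of hs)) m
    rw [inv_eq_of_mul_eq_one_right (sq_of z2), mul_inv_eq_iff_eq_mul] at k1 k2
    exact xH (H88.se_mem_of_commute hH (H88.se_mem_of_commute hH
      (H88.se_mem_of_commute hH sH hs k1.symm) z2 k2) c2 cx.symm)
  · have k1 : (c * s) ^ 2 ∈ centralizer ({x} : Set G) := by
      have e : s * c * s ∈ centralizer ({x} : Set G) := mem_centralizer_singleton_iff.2 (by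
        have s1 : s⁻¹ = s := inv_eq_of_mul_eq_one_right (sq_of hs)
        rw [s1] at sx
        have h1 : s * x = x⁻¹ * s := by rw [← sx, mul_assoc, sq_of hs, mul_one]
        have h2 : s * x⁻¹ = x * s := by
          rw [← sx, ← mul_assoc, ← mul_assoc, sq_of hs, one_mul]
        have h3 : c * x⁻¹ = x⁻¹ * c := (show Commute c x from cx).inv_right
        rw [mul_assoc, h1, ← mul_assoc, mul_assoc s, h3, ← mul_assoc, h2]
        simp only [mul_assoc])
      simpa only [sq, mul_assoc] using mul_mem hc e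
    have k2 : c * s ∈ centralizer ({x} : Set G) := by
      have := pow_mem k1 (m + 1)
      rwa [← pow_mul, show 2 * (m + 1) = 2 * m + 1 + 1 by ring, pow_succ, ← hm, pow_orderOf_eq_one,
        one_mul] at this
    exact xH (H88.se_mem_of_commute hH sH hs
      (mem_centralizer_singleton_iff.1 ((mul_mem_cancel_left hc).1 k2)).symm)

end H83.SQSEm
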