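/- Solubilizers in `PSL₂(q)`: the abstract counting. -/
import Cfsg.Agent.H61.PSLMin
import Cfsg.Agent.H61.PSLOdd
import Cfsg.Agent.H61.PSLMax3
import Cfsg.Agent.H83.InvPair

set_option autoImplicit false

namespace H83.Sol

open H61 MulAction Subgroup
open scoped MatrixGroups

variable {p : ℕ} {G X : Type*} [Group G] [MulAction G X]

/-- the solubilizer -/
def sol (x : G) : Set G := {y | Group.IsSolvable (closure ({x, y} : Set G))}

theorem card_sol (x : G) :
    Nat.card {y : G // Group.IsSolvable (closure ({x, y} : Set G))} = (sol x).ncard := rfl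

theorem mem_sol_of_le {x y : G} {H : Subgroup G} (hH : Group.IsSolvable H) (hx : x ∈ H)
    (hy : y ∈ H) : y ∈ sol x :=
  haveI := hH
  Group.isSolvable_of_isSolvable_injective (f := inclusion ((closure_le H).2
    (Set.insert_subset hx (Set.singleton_subset_iff.2 hy)))) (inclusion_injective _)

theorem l_mem (x y : G) : x ∈ closure ({x, y} : Set G) := subset_closure (by simp)
theorem r_mem (x y : G) : y ∈ closure ({x, y} : Set G) := subset_closure (by simp)

theorem mul_mem_sol {x y : G} (h : y ∈ sol x) (k : ℤ) : x ^ k * y ∈ sol x :=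
  mem_sol_of_le h (l_mem x y) (mul_mem (zpow_mem (l_mem x y) k) (r_mem x y))

theorem inv_mem_sol [Finite G] {x y : G} (hx : x * x = 1) (hy : y * y = 1) : y ∈ sol x := by
  have hn : ((zpowers (x * y)).subgroupOf (closure ({x, y} : Set G))).Normal := by
    refine normal_subgroupOf_of_le_normalizer ((closure_le _).2 ?_)
    have key : ∀ g : G, g * g = 1 → g * (x * y) * g⁻¹ = (x * y)⁻¹ →
        g ∈ normalizer (zpowers (x * y) : Set G) := by
      intro g _ h
      refine mem_normalizer_fintype ?_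
      rintro _ ⟨k, rfl⟩
      exact ⟨-k, (H83.conj_zpow_of_inverts h k).symm⟩
    exact Set.insert_subset (key x hx (left_inverts_mul hx hy))
      (Set.singleton_subset_iff.2 (key y hy (right_inverts_mul hx hy)))
  have h1 : Group.IsSolvable ((zpowers (x * y)).subgroupOf (closure ({x, y} : Set G))) :=
    Group.isSolvable_of_comm fun a b => Subtype.ext (Subtype.ext (by
      obtain ⟨i, hi⟩ := mem_subgroupOf.1 a.2
      obtain ⟨j, hj⟩ := mem_subgroupOf.1 b.2
      show ((a : closure ({x, y} : Set G)) : G) * (b : closure ({x, y} : Set G)) =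
        (b : closure ({x, y} : Set G)) * (a : closure ({x, y} : Set G))
      rw [← hi, ← hj]
      exact zpow_mul_comm _ _ _))
  have h2 : Group.IsSolvable (closure ({x, y} : Set G) ⧸
      (zpowers (x * y)).subgroupOf (closure ({x, y} : Set G))) := by
    refine Group.isSolvable_of_comm fun a b => ?_
    have key : ∀ c : closure ({x, y} : Set G) ⧸
        (zpowers (x * y)).subgroupOf (closure ({x, y} : Set G)),
        c = 1 ∨ c = QuotientGroup.mk ⟨x, l_mem x y⟩ := by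
      intro c
      obtain ⟨c, rfl⟩ := QuotientGroup.mk_surjective c
      obtain ⟨k, h | h⟩ := (mem_closure_pair_iff hx hy _).1 c.2
      · exact .inl ((QuotientGroup.eq_one_iff _).2 (mem_subgroupOf.2 ⟨k, h.symm⟩))
      · refine .inr (QuotientGroup.eq.2 (mem_subgroupOf.2 ⟨-k, ?_⟩))
        show _ = (c : G)⁻¹ * x
        rw [h]; group
    rcases key a with rfl | rfl <;> rcases key b with rfl | rfl <;> simp
  exact Group.isSolvable_of_ker_le_range
    ((zpowers (x * y)).subgroupOf (closure ({x, y} : Set G))).subtype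
    (QuotientGroup.mk' ((zpowers (x * y)).subgroupOf (closure ({x, y} : Set G)))) (by simp)

theorem a4_mem_sol [Finite G] {x y : G} (hx : x ^ 2 = 1) (hy : y ^ 3 = 1) (h : (x * y) ^ 3 = 1) :
    Group.IsSolvable (closure ({x, y} : Set G)) := by
  obtain ⟨φ, h1, h2⟩ := exists_hom_alt4 hx hy h
  rw [← h1, ← h2, ← range_eq_closure_pair closure_a4 φ]
  have : Group.IsSolvable (alternatingGroup (Fin 4)) :=
    isSolvable_of_card_dvd_24 (by rw [card_alt4]; decide)
  exact Group.isSolvable_of_surjective φ.rangeRestrict_surjective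

/-- the shape of solvable two-generator subgroups -/
def Shape (X : Type*) [MulAction G X] (x y : G) : Prop :=
  (∃ a : X, x • a = a ∧ y • a = a) ∨ ∃ a b : X, a ≠ b ∧ x ∈ pairStab G a b ∧ y ∈ pairStab G a b

variable [Finite G]

theorem mem_sol_of_shape (h : Hur p G X) {x y : G} (hs : Shape X x y) : y ∈ sol x := by
  rcases hs with ⟨a, h1, h2⟩ | ⟨a, b, hab, h1, h2⟩
  · exact mem_sol_of_le (h.isSolvable_of_le_stabilizer (x := a) le_rfl) h1 h2
  · exact mem_sol_of_le (h.isSolvable_of_le_pairStab hab le_rfl) h1 h2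

theorem shape_iff (h : Hur p G X) {x : G} {a b : X} (hab : a ≠ b) (hx : x ∈ tor G a b)
    (h2 : x * x ≠ 1) (y : G) : Shape X x y ↔ y • a = a ∨ y • b = b ∨ (y • a = b ∧ y • b = a) := by
  have h1 : x ≠ 1 := fun e => h2 (by rw [e, one_mul])
  constructor
  · rintro (⟨c, h3, h4⟩ | ⟨c, d, hcd, h3, h4⟩)
    · rcases h.fix_two h1 hab hx.1 hx.2 h3 with rfl | rfl
      · exact .inl h4
      · exact .inr (.inl h4)
    · rcases h.tor_eq_of_mem hab hcd h1 hx (h.mem_tor_of_mem_pairStab hcd h3 h2) with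
        ⟨rfl, rfl⟩ | ⟨rfl, rfl⟩ <;> rcases mem_pairStab.1 h4 with h5 | h5
      · exact .inl h5.1
      · exact .inr (.inr h5)
      · exact .inl h5.2
      · exact .inr (.inr h5.symm)
  · rintro (h3 | h3 | h3)
    · exact .inl ⟨a, hx.1, h3⟩
    · exact .inl ⟨b, hx.2, h3⟩
    · exact .inr ⟨a, b, hab, tor_le_pairStab a b hx, mem_pairStab.2 (.inr h3)⟩

omit [MulAction G X] in
theorem ncard_sub (H : Subgroup G) : (H : Set G).ncard = Nat.card H := rfl

variable {h : Hur p G X} {x₀ y₀ : X} {q d n : ℕ}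

theorem semisimple (m : Main h x₀ y₀ q d n) {x : G} (hp : x ^ p ≠ 1) (h2 : x * x ≠ 1) :
    (orderOf x ∣ d ∧ {y | Shape X x y}.ncard = 2 * (q * d)) ∨
    (orderOf x ∣ n ∧ {y | Shape X x y}.ncard = 2 * n) := by
  obtain ⟨a, b, hab, hx⟩ := h.exists_tor hp
  have h1 : x ≠ 1 := fun e => h2 (by rw [e, one_mul])
  have ht : tor G a b ≠ ⊥ := fun e => h1 (mem_bot.1 (e ▸ hx))
  obtain ⟨w, hw1, hw2⟩ := m.exists_swap hab ht
  have hs := ncard_swap (G := G) hw1 hw2
  have e : {y | Shape X x y} = ((stabilizer G a : Set G) ∪ stabilizer G b) ∪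
      {w : G | w • a = b ∧ w • b = a} := by
    ext y
    simp only [Set.mem_setOf_eq, shape_iff h hab hx h2, Set.mem_union, SetLike.mem_coe,
      mem_stabilizer_iff, or_assoc]
  have hd : Disjoint ((stabilizer G a : Set G) ∪ stabilizer G b)
      {w : G | w • a = b ∧ w • b = a} := by
    rw [Set.disjoint_left]
    rintro y (h3 | h3) h4
    · exact hab (h3.symm.trans h4.1)
    · exact hab (h4.2.symm.trans h3)
  have hu := Set.ncard_union_add_ncard_inter (stabilizer G a : Set G) (stabilizer G b)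
  rw [← coe_inf, ncard_sub, ncard_sub, ncard_sub] at hu
  rw [e, Set.ncard_union_eq hd, hs]
  have ho := (tor G a b).orderOf_dvd_natCard hx
  rcases m.tor_cases hab ht with ⟨ha, hb, h3⟩ | ⟨ha, hb, h3, h4⟩
  · rw [card_stabilizer_of_mem_orbit ha, card_stabilizer_of_mem_orbit hb, m.card_stab] at hu
    exact .inl ⟨h3 ▸ ho, by rw [two_mul, ← hu]⟩
  · rw [card_stabilizer_of_mem_orbit ha, card_stabilizer_of_mem_orbit hb, m.card_stab_y] at hu
    exact .inr ⟨h4 ▸ ho, by rw [two_mul, ← hu]⟩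

/-- counting elements of order `p` point by point -/
theorem count_unip (m : Main h x₀ y₀ q d n) (P : G → Prop) (S : Set X) (hS : S ⊆ orbit G x₀)
    (c : ℕ) (h1 : ∀ a ∈ S, {w : G | w ∈ h.Q a ∧ w ≠ 1 ∧ P w}.ncard = c)
    (h0 : ∀ a ∉ S, ∀ w ∈ h.Q a, w ≠ 1 → ¬ P w) :
    {w : G | w ^ p = 1 ∧ w ≠ 1 ∧ P w}.ncard = S.ncard * c := by
  have hf : Finite S := ((Hur.finite_orbit' (G := G) x₀).subset hS).to_subtype
  have := Fintype.ofFinite S
  let f : (Σ a : S, {w : G | w ∈ h.Q a ∧ w ≠ 1 ∧ P w}) → {w : G | w ^ p = 1 ∧ w ≠ 1 ∧ P w} :=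
    fun z => ⟨z.2.1, (h.mem_Q.1 z.2.2.1).2, z.2.2.2⟩
  have hb : Function.Bijective f := by
    constructor
    · rintro ⟨a, w, hw⟩ ⟨a', w', hw'⟩ e
      obtain rfl : w = w' := congrArg Subtype.val e
      obtain rfl : a = a' := Subtype.ext (h.eq_of_Q_inf hw.1 hw'.1 hw.2.1)
      rfl
    · rintro ⟨w, h2, h3, h4⟩
      obtain ⟨a, ha⟩ := h.fix w
      have h5 := h.mem_Q.2 ⟨ha, h2⟩
      have h6 : a ∈ S := by
        by_contra h6
        exact h0 a h6 w h5 h3 h4
      exact ⟨⟨⟨a, h6⟩, w, h5, h3, h4⟩, rfl⟩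
  rw [← Nat.card_coe_set_eq, ← Nat.card_eq_of_bijective f hb, Nat.card_sigma,
    Finset.sum_congr rfl fun (a : S) _ => (Nat.card_coe_set_eq _).trans (h1 a a.2)]
  rw [Finset.sum_const, smul_eq_mul, Finset.card_univ, ← Nat.card_eq_fintype_card,
    Nat.card_coe_set_eq]

omit [MulAction G X] [Finite G] in
theorem ncard_mul_left (x : G) (S : Set G) : {y | x * y ∈ S}.ncard = S.ncard :=
  Set.ncard_preimage_of_injective_subset_range (mul_right_injective x)
    (by rw [(mul_left_surjective x).range_eq]; exact Set.subset_univ _)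

/-- characteristic two, `x` an involution -/
theorem even_inv {h : Hur 2 G X} (m : Main h x₀ y₀ q d n) {x : G} (h1 : x ≠ 1) (h2 : x * x = 1)
    (hs : ∀ y ∈ sol x, Shape X x y) : (sol x).ncard = q * d + 2 * (q * (q - 1)) := by
  obtain ⟨a, ha⟩ := h.fix x
  have hQ := h.mem_Q.2 ⟨ha, by rw [sq, h2]⟩
  have hao := m.mem_orbit_of_Q (a := a) fun e => h1 (mem_bot.1 (e ▸ hQ))
  set I : Set G := {w : G | w ^ 2 = 1 ∧ w ≠ 1 ∧ w • a ≠ a} with hI
  have hIc : I.ncard = q * (q - 1) := by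
    rw [hI, count_unip m _ (orbit G x₀ \ {a}) Set.diff_subset (q - 1)]
    · rw [Set.ncard_diff_singleton_of_mem hao, ← Nat.card_coe_set_eq, m.card_orbit]; rfl
    · intro b hb
      rw [← m.card_Q_of_mem hb.1, ← ncard_sub,
        ← Set.ncard_diff_singleton_of_mem (h.Q b).one_mem]
      congr 1
      ext w
      refine ⟨fun h3 => ⟨h3.1, h3.2.1⟩, fun h3 => ⟨h3.1, h3.2, fun h4 => hb.2 ?_⟩⟩
      exact h.fix_unique (h.mem_Q.1 h3.1).2 h3.2 (h.mem_Q.1 h3.1).1 h4
    · intro b hb w hw hw1 h3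
      have h4 := m.mem_orbit_of_Q (a := b) fun e => hw1 (mem_bot.1 (e ▸ hw))
      obtain rfl : b = a := by
        by_contra h5
        exact hb ⟨h4, h5⟩
      exact h3 (h.mem_Q.1 hw).1
  have hxa : ∀ y : G, (x * y) • a = a ↔ y • a = a := fun y => by
    rw [mul_smul, smul_eq_iff_eq_inv_smul, inv_smul_eq_iff.2 ha.symm]
  have e : sol x = (stabilizer G a : Set G) ∪ (I ∪ {y | x * y ∈ I}) := by
    ext y
    constructor
    · intro hy
      by_cases h3 : y • a = a
      · exact .inl h3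
      right
      rcases hs y hy with ⟨c, h4, h5⟩ | ⟨b, c, hbc, h4, h5⟩
      · exact absurd (h.fix_unique (by rw [sq, h2]) h1 h4 ha ▸ h5) h3
      · have h6 := (mem_pairStab.1 h4).resolve_left fun h6 =>
          hbc (h.fix_unique (by rw [sq, h2]) h1 h6.1 h6.2)
        rcases mem_pairStab.1 h5 with h7 | h7
        · refine .inr ⟨?_, fun e => h3 ((hxa y).1 (by rw [e, one_smul])), mt (hxa y).1 h3⟩
          rw [sq]
          exact h.swap_mul_self hbc (by rw [mul_smul, h7.1, h6.1]) (by rw [mul_smul, h7.2, h6.2])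
        · exact .inl ⟨by rw [sq]; exact h.swap_mul_self hbc h7.1 h7.2,
            fun e => h3 (by rw [e, one_smul]), h3⟩
    · rintro (h3 | h3 | h3)
      · exact mem_sol_of_shape h (.inl ⟨a, ha, h3⟩)
      · exact inv_mem_sol h2 (by rw [← sq]; exact h3.1)
      · have := mul_mem_sol (inv_mem_sol h2 (y := x * y) (by rw [← sq]; exact h3.1)) (-1)
        simpa using this
  rw [e, Set.ncard_union_eq, Set.ncard_union_eq, ncard_mul_left, hIc, ncard_sub,
    card_stabilizer_of_mem_orbit hao, m.card_stab, two_mul]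
  · rw [Set.disjoint_left]
    intro y h3 h4
    have h5 : y * x = x * y := by
      have h6 : ∀ g : G, g ^ 2 = 1 → g⁻¹ = g := fun g hg =>
        inv_eq_of_mul_eq_one_right (by rw [← sq, hg])
      rw [← h6 _ h4.1, mul_inv_rev, h6 y h3.1, h6 x (by rw [sq, h2])]
    exact h3.2.2 (h.mem_Q.1 (h.mem_Q_of_commute hQ h1 h5)).1
  · rw [Set.disjoint_left]
    rintro y h3 (h4 | h4)
    · exact h4.2.2 h3
    · exact h4.2.2 ((hxa y).2 h3)

/-- a group of order six has the right shape -/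
theorem shape_six {h : Hur 2 G X} {x y : G} (h6 : Nat.card (closure ({x, y} : Set G)) = 6) :
    Shape X x y := by
  have : Fact (Nat.Prime 3) := ⟨Nat.prime_three⟩
  obtain ⟨t, ht⟩ := exists_prime_orderOf_dvd_card' (G := closure ({x, y} : Set G)) 3
    (by rw [h6]; decide)
  have hi : (zpowers t).index = 2 := by
    have := (zpowers t).card_mul_index
    rw [Nat.card_zpowers, ht, h6] at this
    omega
  have hn := normal_of_index_eq_two hi
  rw [← orderOf_coe] at ht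
  obtain ⟨a, b, hab, h3⟩ := h.exists_tor (g := (t : G)) fun e =>
    absurd (ht ▸ orderOf_dvd_of_pow_eq_one e) (by decide)
  have h1 : (t : G) ≠ 1 := fun e => by rw [e, orderOf_one] at ht; omega
  have key : ∀ g : closure ({x, y} : Set G), (g : G) ∈ pairStab G a b := fun g => by
    obtain ⟨k, hk⟩ := hn.conj_mem t (mem_zpowers t) g
    refine h.mem_pairStab_of_conj hab h3 h1 ?_
    have : (g : G) * t * (g : G)⁻¹ = (t : G) ^ k := (congrArg Subtype.val hk).symm
    rw [this]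
    exact zpow_mem h3 k
  exact .inr ⟨a, b, hab, key ⟨x, l_mem x y⟩, key ⟨y, r_mem x y⟩⟩

/-! ### characteristic three -/

theorem a4_two : ∀ s t : alternatingGroup (Fin 4), s ^ 2 = 1 →
    t ^ 2 = 1 ∨ (t ^ 3 = 1 ∧ (s * t) ^ 3 = 1) := by decide +kernel

theorem a4_three : ∀ s t : alternatingGroup (Fin 4), s ^ 3 = 1 → s ≠ 1 →
    (t ^ 2 = 1 ∧ (s * t) ^ 3 = 1) ∨ ((s * t) ^ 2 = 1 ∧ (s * (s * t)) ^ 3 = 1) ∨
      ((s⁻¹ * t) ^ 2 = 1 ∧ (s * (s⁻¹ * t)) ^ 3 = 1) := by decide +kernel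

omit [MulAction G X] [Finite G] in
theorem eq_one_23 {y : G} (h2 : y ^ 2 = 1) (h3 : y ^ 3 = 1) : y = 1 := by
  rw [pow_succ, h2, one_mul] at h3; exact h3

omit [MulAction G X] [Finite G] in
theorem pow_iff {Γ : Type*} [Group Γ] {H : Subgroup G} (e : H ≃* Γ) (a : H) (k : ℕ) :
    e a ^ k = 1 ↔ (a : G) ^ k = 1 := by
  rw [← map_pow, map_eq_one_iff _ e.injective, Subtype.ext_iff]; rfl

theorem three_three {h : Hur 3 G X} (m : Main h x₀ y₀ q d n) (hd : Odd (q * d)) {x : G}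
    (h1 : x ≠ 1) (h3 : x ^ 3 = 1) (hs : ∀ y ∈ sol x, Shape X x y ∨
      Nonempty (closure ({x, y} : Set G) ≃* alternatingGroup (Fin 4)))
    (hJ : {w : G | w ^ 2 = 1 ∧ w ≠ 1 ∧ (x * w) ^ 3 = 1}.ncard = q) :
    (sol x).ncard = q * d + 3 * q := by
  obtain ⟨a, ha⟩ := h.fix x
  have hQ := h.mem_Q.2 ⟨ha, h3⟩
  have hao := m.mem_orbit_of_Q (a := a) fun e => h1 (mem_bot.1 (e ▸ hQ))
  have hst : Nat.card (stabilizer G a) = q * d := by
    rw [card_stabilizer_of_mem_orbit hao, m.card_stab]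
  set J : Set G := {w : G | w ^ 2 = 1 ∧ w ≠ 1 ∧ (x * w) ^ 3 = 1} with hJ'
  have hxs : x ∈ stabilizer G a := ha
  have hJa : ∀ w ∈ J, w ∉ stabilizer G a := fun w hw h4 => by
    have h5 := (stabilizer G a).orderOf_dvd_natCard h4
    rw [orderOf_eq_prime hw.1 hw.2.1, hst] at h5
    exact Nat.not_even_iff_odd.2 hd (even_iff_two_dvd.2 h5)
  have hJs : ∀ w ∈ J, w ∈ sol x := fun w hw => by
    have := a4_mem_sol hw.1 h3 (mul_swap_pow_eq_one hw.2.2)
    rwa [Set.pair_comm] at this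
  have hinv : ∀ w ∈ J, (x⁻¹ * w) ^ 3 = 1 := fun w hw => by
    have h4 : w⁻¹ = w := inv_eq_of_mul_eq_one_right (by rw [← sq, hw.1])
    rw [← h4, ← mul_inv_rev, inv_pow, mul_swap_pow_eq_one hw.2.2, inv_one]
  have e : sol x = (stabilizer G a : Set G) ∪ (J ∪ ({y | x * y ∈ J} ∪ {y | x⁻¹ * y ∈ J})) := by
    ext y
    constructor
    · intro hy
      by_cases h4 : y ∈ stabilizer G a
      · exact .inl h4
      right
      rcases hs y hy with (⟨c, h5, h6⟩ | ⟨b, c, hbc, h5, -⟩) | ⟨⟨e⟩⟩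
      · exact absurd (h.fix_unique h3 h1 h5 ha ▸ h6) h4
      · have h6 := h.mem_tor_of_mem_pairStab hbc h5 fun e => h1 (eq_one_23 (by rw [sq, e]) h3)
        exact absurd (h.fix_unique h3 h1 h6.1 h6.2) hbc
      · have h5 := a4_three (e ⟨x, l_mem x y⟩) (e ⟨y, r_mem x y⟩) ((pow_iff e _ _).2 h3)
          fun h5 => h1 (congrArg Subtype.val ((map_eq_one_iff _ e.injective).1 h5))
        simp only [← map_inv, ← map_mul, pow_iff] at h5
        rcases h5 with h5 | h5 | h5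
        · exact .inl ⟨h5.1, fun e => h4 (e ▸ one_mem _), h5.2⟩
        · exact .inr (.inl ⟨h5.1, fun e => h4 ((mul_mem_cancel_left hxs).1 (e ▸ one_mem _)), h5.2⟩)
        · exact .inr (.inr ⟨h5.1, fun e => h4 ((mul_mem_cancel_left (inv_mem hxs)).1
            (e ▸ one_mem _)), h5.2⟩)
    · rintro (h4 | h4 | h4 | h4)
      · exact mem_sol_of_shape h (.inl ⟨a, ha, h4⟩)
      · exact hJs y h4
      · simpa using mul_mem_sol (hJs _ h4) (-1)
      · simpa using mul_mem_sol (hJs _ h4) 1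
  rw [e, Set.ncard_union_eq, Set.ncard_union_eq, Set.ncard_union_eq, ncard_mul_left,
    ncard_mul_left, hJ, ncard_sub, hst]
  · ring
  · rw [Set.disjoint_left]
    intro y h4 h5
    have h6 := hinv _ h5
    have h7 : x⁻¹ * (x⁻¹ * y) = x * y := by
      rw [← mul_assoc]; congr 1
      rw [inv_mul_eq_iff_eq_mul, inv_eq_iff_mul_eq_one, ← h3, pow_three]
    exact h4.2.1 (eq_one_23 h4.1 (h7 ▸ h6))
  · rw [Set.disjoint_left]
    rintro y h4 (h5 | h5)
    · exact h4.2.1 (eq_one_23 h4.1 (by simpa using hinv _ h5))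
    · exact h4.2.1 (eq_one_23 h4.1 (by simpa using h5.2.2))
  · rw [Set.disjoint_left]
    rintro y h4 (h5 | h5 | h5)
    · exact hJa y h5 h4
    · exact hJa _ h5 (mul_mem hxs h4)
    · exact hJa _ h5 (mul_mem (inv_mem hxs) h4)

theorem three_inv {h : Hur 3 G X} (m : Main h x₀ y₀ q d n) (hd : Odd d) (hn : n = d + 1)
    (hq : 2 * d + 1 = q) {x : G}
    (h1 : x ≠ 1) (h2 : x * x = 1) (hs : ∀ y ∈ sol x, Shape X x y ∨
      Nonempty (closure ({x, y} : Set G) ≃* alternatingGroup (Fin 4)))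
    (hK : {w : G | w ^ 3 = 1 ∧ w ≠ 1 ∧ (x * w) ^ 3 = 1}.ncard = (q + 1) * 2) :
    (sol x).ncard = q * (q + 1) := by
  have hne : Even n := hn ▸ hd.add_one
  obtain ⟨a, b, hab, hx, hT⟩ := m.exists_tor_inv (by decide) hn (.inr rfl) hne h1 h2
  have ht : tor G a b ≠ ⊥ := fun e => h1 (mem_bot.1 (e ▸ hx))
  obtain ⟨w, hw1, hw2⟩ := m.exists_swap hab ht
  have hsw := ncard_swap (G := G) hw1 hw2
  set I : Set G := {t : G | t ≠ 1 ∧ t * t = 1} with hI
  have hIc : I.ncard = q * d := by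
    have h3 := m.ncard_inv_mul (by decide) hn (.inr rfl) hne
    rw [m.card_eq, show q + 1 = 2 * n by omega, mul_comm (2 * n)] at h3
    exact Nat.eq_of_mul_eq_mul_right (by omega) h3
  have hst : ∀ y : G, y • a = a ∨ y • b = b → y ∈ tor G a b := by
    rcases m.tor_cases hab ht with ⟨-, -, h3⟩ | ⟨-, hb, h3, -⟩
    · omega
    rintro y (h4 | h4)
    · rw [h3]; exact h4
    · have h5 : tor G a b = stabilizer G b := eq_of_le_of_card_ge inf_le_right (by
        rw [card_stabilizer_of_mem_orbit hb, m.card_stab_y, hT])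
      rw [h5]; exact h4
  have hA : ∀ y : G, y * y = 1 ∨ x * y * (x * y) = 1 → y ∈ I ∪ {y | x * y ∈ I} := by
    rintro y (h3 | h3)
    · by_cases h4 : y = 1
      · exact .inr ⟨by rwa [h4, mul_one], by rwa [h4, mul_one]⟩
      · exact .inl ⟨h4, h3⟩
    · by_cases h4 : x * y = 1
      · obtain rfl : x = y := mul_left_cancel (h2.trans h4.symm)
        exact .inl ⟨h1, h2⟩
      · exact .inr ⟨h4, h3⟩
  have hB : ∀ y ∈ tor G a b, y ∈ (I ∪ {y | x * y ∈ I}) ∪ (((tor G a b : Set G) \ {1, x}) ∪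
      {w : G | w ^ 3 = 1 ∧ w ≠ 1 ∧ (x * w) ^ 3 = 1}) := by
    intro y hy
    by_cases h3 : y ∈ ({1, x} : Set G)
    · rcases h3 with rfl | rfl
      · exact .inl (hA _ (.inl (one_mul 1)))
      · exact .inl (hA _ (.inl h2))
    · exact .inr (.inl ⟨hy, h3⟩)
  have e : sol x = (I ∪ {y | x * y ∈ I}) ∪ (((tor G a b : Set G) \ {1, x}) ∪
      {w : G | w ^ 3 = 1 ∧ w ≠ 1 ∧ (x * w) ^ 3 = 1}) := by
    ext y
    constructor
    · intro hy
      rcases hs y hy with (⟨c, h5, h6⟩ | ⟨c, c', hc, h5, h6⟩) | ⟨⟨e⟩⟩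
      · rcases h.fix_two h1 hab hx.1 hx.2 h5 with rfl | rfl
        · exact hB y (hst y (.inl h6))
        · exact hB y (hst y (.inr h6))
      · rcases mem_pairStab.1 h6 with h7 | h7
        · rcases mem_pairStab.1 h5 with h8 | h8
          · rcases h.fix_two h1 hab hx.1 hx.2 h8.1 with rfl | rfl
            · exact hB y (hst y (.inl h7.1))
            · exact hB y (hst y (.inr h7.1))
          · exact .inl (hA y (.inr (h.swap_mul_self hc (by rw [mul_smul, h7.1, h8.1])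
              (by rw [mul_smul, h7.2, h8.2]))))
        · exact .inl (hA y (.inl (h.swap_mul_self hc h7.1 h7.2)))
      · have h5 := a4_two (e ⟨x, l_mem x y⟩) (e ⟨y, r_mem x y⟩)
          ((pow_iff e _ _).2 (by rw [sq]; exact h2))
        simp only [← map_mul, pow_iff] at h5
        rcases h5 with h5 | h5
        · exact .inl (hA y (.inl (by rw [← sq]; exact h5)))
        · by_cases h6 : y = 1
          · exact .inl (hA y (.inl (by rw [h6, one_mul])))
          · exact .inr (.inr ⟨h5.1, h6, h5.2⟩)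
    · rintro ((h3 | h3) | h3 | h3)
      · exact inv_mem_sol h2 h3.2
      · simpa using mul_mem_sol (inv_mem_sol h2 h3.2) (-1)
      · exact mem_sol_of_shape h (.inl ⟨a, hx.1, h3.1.1⟩)
      · exact a4_mem_sol (by rw [sq, h2]) h3.1 h3.2.2
  have hu := Set.ncard_union_add_ncard_inter I {y | x * y ∈ I}
  have hi : I ∩ {y | x * y ∈ I} = {w : G | w • a = b ∧ w • b = a} := by
    ext y
    rw [Set.mem_setOf_eq, h.swap_iff hab hx h1 h2]
    constructor
    · rintro ⟨h3, h4⟩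
      refine ⟨h3.1, h3.2, fun e => h4.1 (e ▸ h2), ?_⟩
      rw [← inv_eq_of_mul_eq_one_right h4.2, mul_inv_rev, inv_eq_of_mul_eq_one_right h3.2,
        inv_eq_of_mul_eq_one_right h2]
    · rintro ⟨h3, h4, h5, h6⟩
      refine ⟨⟨h3, h4⟩, fun e => h5 (mul_left_cancel (h2.trans e.symm)), ?_⟩
      rw [mul_assoc, ← mul_assoc y, ← h6, mul_assoc, h4, mul_one, h2]
  rw [hi, hsw, hT, ncard_mul_left, hIc] at hu
  have hc : ((tor G a b : Set G) \ {1, x}).ncard + 2 = n := by
    rw [← hT, ← ncard_sub, ← Set.ncard_pair h1.symm, Set.ncard_diff_add_ncard_of_subset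
      (Set.insert_subset (one_mem _) (Set.singleton_subset_iff.2 hx))]
  rw [e, Set.ncard_union_eq, Set.ncard_union_eq (s := _ \ _), hK]
  · subst hq
    nlinarith
  · rw [Set.disjoint_left]
    exact fun y h3 h4 => hab (h.fix_unique h4.1 h4.2.1 h3.1.1 h3.1.2)
  · rw [Set.disjoint_left]
    rintro y (h3 | h3) (h4 | h4)
    · exact h4.2 (.inr (h.tor_inv_unique hab h4.1 hx h3.1 h1 h3.2 h2))
    · exact h3.1 (eq_one_23 (by rw [sq, h3.2]) h4.1)
    · exact h4.2 (.inl (mul_eq_left.1 (h.tor_inv_unique hab (mul_mem hx h4.1) hx h3.1 h1 h3.2 h2)))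
    · exact h3.1 (eq_one_23 (by rw [sq, h3.2]) h4.2.2)

/-! ### concrete counts -/

section concrete

variable {F : Type*} [Field F] [Finite F]

omit [Finite G] [MulAction G X] in
theorem ncard_conj (g : G) (S : Set G) : {w | g * w * g⁻¹ ∈ S}.ncard = S.ncard :=
  Set.ncard_preimage_of_injective_subset_range (f := MulAut.conj g) (MulAut.conj g).injective
    (by rw [(MulAut.conj g).surjective.range_eq]; exact Set.subset_univ _)

omit [Finite F] in
theorem cube_iff {g : SL(2, F)} (h1 : proj F g ≠ 1) : proj F g ^ 3 = 1 ↔ tr g ^ 2 = 1 := by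
  refine ⟨tr_sq_eq_one_of_proj h1, fun h => ?_⟩
  rcases sq_eq_one_iff.1 h with h | h
  · exact proj_pow_eq_one (sl_cube_of_tr_one h)
  · rw [← proj_neg]
    exact proj_pow_eq_one (sl_cube_of_tr_one (by rw [tr_neg, h, neg_neg]))

omit [Finite F] in
theorem upper_inj (h2 : (2 : F) ≠ 0) {b c : F} (h : proj F (upper b) = proj F (upper c)) : b = c := by
  rcases proj_eq_iff.1 h with h | h
  · simpa [upper_coe] using congrArg (fun g : SL(2, F) => g 0 1) h
  · have := congrArg (fun g : SL(2, F) => g 0 0) h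
    simp only [upper_coe, Matrix.SpecialLinearGroup.coe_neg, Matrix.neg_apply, Matrix.of_apply,
      Matrix.cons_val', Matrix.cons_val_zero, Matrix.cons_val_fin_one] at this
    exact absurd (by linear_combination this) h2

omit [Finite F] in
theorem upper_zero : proj F (upper (0 : F)) = 1 :=
  proj_eq_one_iff.2 (.inl (sl_ext (by simp [upper_coe]) (by simp [upper_coe]) (by simp [upper_coe])
    (by simp [upper_coe])))

theorem count_K [CharP F 3] (hm : ¬ IsSquare (-1 : F)) {x : PSL(2, F)} (h1 : x ≠ 1)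
    (h2 : x * x = 1) : {w | w ∈ (hur_psl F 3).Q (pinf (AlgebraicClosure F)) ∧ w ≠ 1 ∧
      (x * w) ^ 3 = 1}.ncard = 2 := by
  have h20 : (2 : F) ≠ 0 := (char_ne_two_iff (p := 3)).1 (by decide)
  obtain ⟨g, rfl⟩ := proj_surjective x
  have h3 := tr_eq_zero_of_proj h1 (by rw [sq, h2])
  have h4 := sl_det g
  rw [tr] at h3
  have h5 : g 1 0 ≠ 0 := fun e => hm ⟨g 0 0, by
    rw [e] at h4; linear_combination h4 - g 0 0 * h3⟩
  have h6 : ∀ b : F, tr (g * upper b) = g 1 0 * b := fun b => by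
    rw [tr, sl_mul_apply, sl_mul_apply]
    simp only [upper_coe, Matrix.of_apply, Matrix.cons_val', Matrix.cons_val_zero,
      Matrix.cons_val_one, Matrix.cons_val_fin_one]
    linear_combination h3
  have h7 : ∀ b : F, proj F (g * upper b) ≠ 1 := fun b e => by
    have h8 : proj F (upper b) ^ 3 = 1 := ((hur_psl F 3).mem_Q.1 (mem_Q_psl.2 ⟨b, rfl⟩)).2
    rw [map_mul, mul_eq_one_iff_eq_inv] at e
    exact h1 (eq_one_23 (by rw [sq, h2]) (by rw [e, inv_pow, h8, inv_one]))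
  have hne : proj F (upper (g 1 0)⁻¹) ≠ proj F (upper (-(g 1 0)⁻¹)) := fun e =>
    inv_ne_zero h5 (mul_left_cancel₀ h20 (by linear_combination upper_inj h20 e))
  refine Eq.trans ?_ (Set.ncard_pair hne)
  congr 1
  ext w
  constructor
  · rintro ⟨h8, -, h9⟩
    obtain ⟨b, rfl⟩ := mem_Q_psl.1 h8
    have h10 := (cube_iff (h7 b)).1 (by rw [map_mul]; exact h9)
    rw [h6] at h10
    rcases sq_eq_one_iff.1 h10 with h | h
    · exact .inl (by rw [← eq_inv_of_mul_eq_one_right h]; rfl)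
    · exact .inr (by
        rw [← inv_neg, ← eq_inv_of_mul_eq_one_right (show -g 1 0 * b = 1 by linear_combination -h)]
        rfl)
  · have key : ∀ b : F, (g 1 0 * b) ^ 2 = 1 → proj F (upper b) ∈ (hur_psl F 3).Q
        (pinf (AlgebraicClosure F)) ∧ proj F (upper b) ≠ 1 ∧ (proj F g * proj F (upper b)) ^ 3 = 1 := by
      intro b hb
      refine ⟨mem_Q_psl.2 ⟨b, rfl⟩, fun e => ?_, ?_⟩
      · rw [upper_inj h20 (e.trans upper_zero.symm)] at hb
        simp at hb
      · rw [← map_mul, cube_iff (h7 b), h6, hb]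
    rintro (rfl | rfl)
    · exact key _ (by rw [mul_inv_cancel₀ h5, one_pow])
    · exact key _ (by rw [mul_neg, mul_inv_cancel₀ h5, neg_one_sq])

theorem count_J [CharP F 3] {b : F} (hb : b ≠ 0) :
    {w : PSL(2, F) | w ^ 2 = 1 ∧ w ≠ 1 ∧ (proj F (upper b) * w) ^ 3 = 1}.ncard = Nat.card F := by
  have h20 : (2 : F) ≠ 0 := (char_ne_two_iff (p := 3)).1 (by decide)
  let f : F → PSL(2, F) := fun e => proj F (sl2 e (-(1 + e ^ 2) * b) b⁻¹ (-e) (by field_simp; ring))
  have h6 : ∀ g : SL(2, F), tr g = 0 → tr (upper b * g) = b * g 1 0 := fun g h3 => by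
    rw [tr] at h3
    rw [tr, sl_mul_apply, sl_mul_apply]
    simp only [upper_coe, Matrix.of_apply, Matrix.cons_val', Matrix.cons_val_zero,
      Matrix.cons_val_one, Matrix.cons_val_fin_one]
    linear_combination h3
  have h7 : ∀ g : SL(2, F), proj F g ≠ 1 → proj F g ^ 2 = 1 → proj F (upper b * g) ≠ 1 :=
    fun g h1 h2 e => by
      have h8 : proj F (upper b) ^ 3 = 1 := ((hur_psl F 3).mem_Q.1 (mem_Q_psl.2 ⟨b, rfl⟩)).2
      rw [map_mul, mul_eq_one_iff_inv_eq] at e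
      exact h1 (eq_one_23 h2 (by rw [← e, inv_pow, h8, inv_one]))
  have hf : Function.Injective f := fun e e' h => by
    rcases proj_eq_iff.1 h with h | h
    · simpa using congrArg (fun g : SL(2, F) => g 0 0) h
    · have := congrArg (fun g : SL(2, F) => g 1 0) h
      simp only [sl2_coe, Matrix.SpecialLinearGroup.coe_neg, Matrix.neg_apply, Matrix.of_apply,
        Matrix.cons_val', Matrix.cons_val_zero, Matrix.cons_val_one, Matrix.cons_val_fin_one] at this
      exact absurd (mul_left_cancel₀ h20 (by linear_combination this)) (inv_ne_zero hb)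
  rw [← Set.ncard_univ, ← Set.ncard_image_of_injective _ hf, Set.image_univ]
  congr 1
  ext w
  constructor
  · rintro ⟨h2, h1, h3⟩
    obtain ⟨g, rfl⟩ := proj_surjective w
    have key : ∀ g : SL(2, F), tr g = 0 → b * g 1 0 = 1 → proj F g ∈ Set.range f := by
      intro g h4 h5
      have h8 := sl_det g
      rw [tr] at h4
      refine ⟨g 0 0, congrArg (proj F) (sl_ext (h := g) rfl ?_ ?_ ?_)⟩
      · show -(1 + g 0 0 ^ 2) * b = g 0 1
        linear_combination b * h8 - b * g 0 0 * h4 + g 0 1 * h5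
      · exact (eq_inv_of_mul_eq_one_right h5).symm
      · show -g 0 0 = g 1 1
        linear_combination -h4
    have h4 := tr_eq_zero_of_proj h1 h2
    have h5 := (cube_iff (h7 g h1 h2)).1 (by rw [map_mul]; exact h3)
    rw [h6 g h4] at h5
    rcases sq_eq_one_iff.1 h5 with h | h
    · exact key g h4 h
    · rw [← proj_neg]
      exact key (-g) (by rw [tr_neg, h4, neg_zero]) (by
        simp only [Matrix.SpecialLinearGroup.coe_neg, Matrix.neg_apply]; linear_combination -h)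
  · rintro ⟨e, rfl⟩
    have h4 : tr (sl2 e (-(1 + e ^ 2) * b) b⁻¹ (-e) (by field_simp; ring)) = 0 := by simp
    have h1 : f e ≠ 1 := fun h => by
      rcases proj_eq_one_iff.1 h with h | h <;> rw [h] at h4 <;> exact h20 (by simpa using h4)
    have h2 : f e ^ 2 = 1 := proj_sq_eq_one_iff.2 (.inr h4)
    refine ⟨h2, h1, ?_⟩
    rw [← map_mul, cube_iff (h7 _ h1 h2), h6 _ h4]
    show (b * b⁻¹) ^ 2 = 1
    rw [mul_inv_cancel₀ hb, one_pow]

omit [Finite F] in
theorem conj_cube {G : Type*} [Group G] (g x w : G) :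
    (g * x * g⁻¹ * (g * w * g⁻¹)) ^ 3 = 1 ↔ (x * w) ^ 3 = 1 := by
  rw [show g * x * g⁻¹ * (g * w * g⁻¹) = g * (x * w) * g⁻¹ by group, conj_pow, conj_eq_one_iff]

theorem count_K' [CharP F 3] (hm : ¬ IsSquare (-1 : F)) {x : PSL(2, F)} (h1 : x ≠ 1)
    (h2 : x * x = 1) : {w | w ^ 3 = 1 ∧ w ≠ 1 ∧ (x * w) ^ 3 = 1}.ncard = (Nat.card F + 1) * 2 := by
  obtain ⟨y, m⟩ := main_psl (F := F) 3
  rw [count_unip m _ _ le_rfl 2, ← Nat.card_coe_set_eq, m.card_orbit]
  · rintro _ ⟨g, rfl⟩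
    refine Eq.trans ?_ (count_K hm (x := g⁻¹ * x * g⁻¹⁻¹) (by rwa [Ne, conj_eq_one_iff])
      (by rw [conj_mul, h2, mul_one, mul_inv_cancel]))
    rw [← ncard_conj g]
    congr 1
    ext w
    simp only [Set.mem_setOf_eq, Ne, conj_eq_one_iff]
    refine and_congr ⟨fun h => ?_, fun h => (hur_psl F 3).conj_mem_Q h g⟩ (and_congr_right fun _ => ?_)
    · simpa [mul_assoc] using (hur_psl F 3).conj_mem_Q h g⁻¹
    · rw [← conj_cube g (g⁻¹ * x * g⁻¹⁻¹) w]
      simp [mul_assoc]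
  · exact fun a ha w hw h3 _ => ha (m.mem_orbit_of_Q fun e => h3 (mem_bot.1 (e ▸ hw)))

theorem count_J' [CharP F 3] {x : PSL(2, F)} (h1 : x ≠ 1) (h3 : x ^ 3 = 1) :
    {w : PSL(2, F) | w ^ 2 = 1 ∧ w ≠ 1 ∧ (x * w) ^ 3 = 1}.ncard = Nat.card F := by
  obtain ⟨y, m⟩ := main_psl (F := F) 3
  obtain ⟨a, ha⟩ := (hur_psl F 3).fix x
  have hQ := (hur_psl F 3).mem_Q.2 ⟨ha, h3⟩
  obtain ⟨g, rfl⟩ := m.mem_orbit_of_Q (a := a) fun e => h1 (mem_bot.1 (e ▸ hQ))
  have h4 := (hur_psl F 3).conj_mem_Q hQ g⁻¹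
  rw [inv_smul_smul] at h4
  obtain ⟨b, hb⟩ := mem_Q_psl.1 h4
  have hb' : g⁻¹ * x * g⁻¹⁻¹ = proj F (upper b) := hb
  have hb0 : b ≠ 0 := by
    rintro rfl
    rw [upper_zero, conj_eq_one_iff] at hb'
    exact h1 hb'
  rw [← count_J hb0, ← hb']
  refine Eq.trans ?_ (ncard_conj g⁻¹ _)
  congr 1
  ext w
  simp only [Set.mem_setOf_eq, Ne, conj_eq_one_iff, conj_pow, conj_cube]

theorem shape_even [CharP F 2] {r : ℕ} (hr : r.Prime) (hF : Nat.card F = 2 ^ r) (x : PSL(2, F)) :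
    ∀ y ∈ sol x, Shape (PL F) x y := by
  intro y hy
  obtain ⟨z, m⟩ := main_psl (F := F) 2
  have h4 : 4 ≤ Nat.card F := hF ▸ le_trans (by norm_num) (Nat.pow_le_pow_right two_pos hr.two_le)
  have hne : closure ({x, y} : Set PSL(2, F)) ≠ ⊤ := fun e => not_isSolvable_psl h4 (by
    have : Group.IsSolvable (⊤ : Subgroup PSL(2, F)) := e ▸ hy
    exact Group.isSolvable_of_surjective (f := (⊤ : Subgroup PSL(2, F)).subtype)
      fun g => ⟨⟨g, trivial⟩, rfl⟩)
  have key : ∀ (k : Subfield F) (e : ℕ), 2 ≤ e → Nat.card k ^ e = Nat.card F → Nat.card k = 2 :=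
    fun k e he hk => by
      obtain ⟨c, -, hc⟩ := exists_card_eq_pow (F := k) 2
      exact eq_of_pow_prime le_rfl hr he hc (hk.trans hF)
  rcases dickson_psl_proper 2 m _ hne with ⟨a, -, h⟩ | ⟨a, -, h⟩ | ⟨a, b, hab, -, h, -⟩ |
    ⟨h, ⟨e⟩⟩ | ⟨h, ⟨e⟩⟩ | ⟨-, ⟨e⟩⟩ | ⟨k, -, e, he, hk, -, -, -, ⟨φ⟩⟩ | ⟨k, -, e, he, hk, ho, -⟩
  · exact .inl ⟨a, h (l_mem x y), h (r_mem x y)⟩
  · exact .inl ⟨a, h (l_mem x y), h (r_mem x y)⟩
  · exact .inr ⟨a, b, hab, h (l_mem x y), h (r_mem x y)⟩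
  · exact absurd (by rw [card_of_alt4 e]; decide) h
  · exact absurd (by rw [card_of_sym4 e]; decide) h
  · exact absurd hy (not_isSolvable_of_alt5 e)
  · refine shape_six (h := hur_psl F 2) ?_
    rw [Nat.card_congr φ.toEquiv, card_pgl_two, key k e he hk]
    rfl
  · exact absurd (key k e he hk ▸ ho) (by decide)

theorem a4_of_three {k : Type*} [Field k] [Finite k] (hk : Nat.card k = 3) :
    Nonempty (PSL(2, k) ≃* alternatingGroup (Fin 4)) := by
  have ho : Odd (Nat.card k) := by rw [hk]; decide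
  obtain ⟨H, ⟨e⟩⟩ := exists_alt4_psl_of_odd (F := k) (two_ne_zero_iff_odd.2 ho)
  have h1 := two_mul_card_psl ho
  rw [hk] at h1
  obtain rfl : H = ⊤ := H.eq_top_of_card_eq (by rw [card_of_alt4 e]; omega)
  exact ⟨topEquiv.symm.trans e⟩

theorem shape_three [CharP F 3] {r : ℕ} (hr : r.Prime) (hF : Nat.card F = 3 ^ r)
    (hd : Odd ((Nat.card F - 1) / Nat.gcd 2 (Nat.card F - 1))) (x : PSL(2, F)) :
    ∀ y ∈ sol x, Shape (PL F) x y ∨
      Nonempty (closure ({x, y} : Set PSL(2, F)) ≃* alternatingGroup (Fin 4)) := by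
  intro y hy
  obtain ⟨z, m⟩ := main_psl (F := F) 3
  have h4 : 4 ≤ Nat.card F :=
    hF ▸ le_trans (by norm_num) (Nat.pow_le_pow_right three_pos hr.two_le)
  have hne : closure ({x, y} : Set PSL(2, F)) ≠ ⊤ := fun e => not_isSolvable_psl h4 (by
    have : Group.IsSolvable (⊤ : Subgroup PSL(2, F)) := e ▸ hy
    exact Group.isSolvable_of_surjective (f := (⊤ : Subgroup PSL(2, F)).subtype)
      fun g => ⟨⟨g, trivial⟩, rfl⟩)
  have key : ∀ (k : Subfield F) (e : ℕ), 2 ≤ e → Nat.card k ^ e = Nat.card F → Nat.card k = 3 :=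
    fun k e he hk => by
      obtain ⟨c, -, hc⟩ := exists_card_eq_pow (F := k) 3
      exact eq_of_pow_prime (by norm_num) hr he hc (hk.trans hF)
  rcases dickson_psl_proper 3 m _ hne with ⟨a, -, h⟩ | ⟨a, -, h⟩ | ⟨a, b, hab, -, h, -⟩ |
    ⟨h, ⟨e⟩⟩ | ⟨h, ⟨e⟩⟩ | ⟨-, ⟨e⟩⟩ | ⟨k, -, e, he, hk, h, -⟩ | ⟨k, -, e, he, hk, -, -, ⟨φ⟩⟩
  · exact .inl (.inl ⟨a, h (l_mem x y), h (r_mem x y)⟩)
  · exact .inl (.inl ⟨a, h (l_mem x y), h (r_mem x y)⟩)
  · exact .inl (.inr ⟨a, b, hab, h (l_mem x y), h (r_mem x y)⟩)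
  · exact .inr ⟨e⟩
  · exact absurd (by rw [card_of_sym4 e]; decide) h
  · exact absurd hy (not_isSolvable_of_alt5 e)
  · rw [key k e he hk] at h
    exact absurd (even_iff_two_dvd.2 h) (Nat.not_even_iff_odd.2 hd)
  · obtain ⟨ψ⟩ := a4_of_three (key k e he hk)
    exact .inr ⟨φ.trans ψ⟩

end concrete

theorem sol_eq_shape (h : Hur p G X) {x : G} (hs : ∀ y ∈ sol x, Shape X x y) :
    sol x = {y | Shape X x y} := Set.ext fun y => ⟨hs y, mem_sol_of_shape h⟩

end H83.Sol
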